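import Mathlib
import Cfsg.Agent.Lib.Classical.Dick.TorN

/-!
Centralisers of elements of `PSL₂(F)`, and the sizes of its conjugacy classes.
-/

set_option autoImplicit false
set_option linter.unusedSimpArgs false
set_option linter.unusedVariables false

namespace Cfsg.Agent.Lib.Classical.Dick

open Matrix
open scoped MatrixGroups
open Cfsg.Agent.Lib.KS2.SL2

variable {F : Type*} [Field F]

local notation "PP" => Matrix.ProjectiveSpecialLinearGroup (Fin 2) F

/-- Elements commuting with `π x` modulo the centre. -/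
lemma mem_cent_pi (x : SL(2, F)) (y : PP) :
    y ∈ Subgroup.centralizer ({(pi x : PP)} : Set PP) ↔
      ∃ (ε : F) (hε : ε * ε = 1), x * lf y = sc ε hε * (lf y * x) := by
  rw [Subgroup.mem_centralizer_singleton_iff]
  constructor
  · intro h
    have h1 : (pi (lf y * x) : PP) = pi (x * lf y) := by
      rw [map_mul, map_mul, pi_lf, h]
    exact (pi_eq_iff _ _).mp h1
  · rintro ⟨ε, hε, e⟩
    have h1 : (pi (lf y * x) : PP) = pi (x * lf y) := (pi_eq_iff _ _).mpr ⟨ε, hε, e⟩
    rw [map_mul, map_mul, pi_lf] at h1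
    exact h1

lemma sc_one_eq (h : (1 : F) * 1 = 1) : sc (1 : F) h = (1 : SL(2, F)) := by
  ext i j
  fin_cases i <;> fin_cases j <;> simp [sc, mk]

/-- If the trace is non-zero or the characteristic is two, the centraliser is the torus. -/
lemma cent_eq_CP (x : SL(2, F)) (h : ringChar F = 2 ∨ tr x ≠ 0) :
    Subgroup.centralizer ({(pi x : PP)} : Set PP) = CP (pi x) := by
  ext y
  rw [mem_cent_pi, mem_CP_iff]
  constructor
  · rintro ⟨ε, hε, e⟩
    have hε1 : ε = 1 := by
      rcases h with h | h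
      · haveI : CharP F 2 := ringChar.of_eq h
        have h2 : (2 : F) = 0 := by exact_mod_cast CharP.cast_eq_zero F 2
        have h3 : (ε - 1) ^ 2 = 0 := by linear_combination hε - (ε - 1) * h2
        have := pow_eq_zero_iff (n := 2) (by norm_num) |>.mp h3
        linear_combination this
      · have h1 : x = sc ε hε * (lf y * x * (lf y)⁻¹) := by
          calc x = x * lf y * (lf y)⁻¹ := by group
            _ = sc ε hε * (lf y * x) * (lf y)⁻¹ := by rw [e]
            _ = _ := by group
        have h2 : tr x = ε * tr x := by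
          conv_lhs => rw [h1]
          rw [tr_sc_mul, tr_conj]
        have h3 : (ε - 1) * tr x = 0 := by linear_combination -h2
        rcases mul_eq_zero.mp h3 with h4 | h4
        · linear_combination h4
        · exact absurd h4 h
    subst hε1
    rw [sc_one_eq, one_mul] at e
    exact e.symm
  · intro e
    refine ⟨1, by ring, ?_⟩
    rw [sc_one_eq, one_mul]
    exact e.symm

variable [Fintype F]

/-- In odd characteristic, the centraliser of an involution `π x` with `tr x = 0`. -/
lemma card_cent_tr_zero (x : SL(2, F)) (h2 : ringChar F ≠ 2) (h0 : tr x = 0) :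
    Nat.card (Subgroup.centralizer ({(pi x : PP)} : Set PP)) = 2 * Nat.card (CP (pi x) : Subgroup PP) := by
  classical
  have h22 : (2 : F) ≠ 0 := Ring.two_ne_zero h2
  have hτ : (tr x) ^ 2 ≠ 4 := by
    rw [h0]
    intro h
    apply h22
    have : (2 : F) * 2 = 0 := by linear_combination -h
    simpa using this
  set C := Subgroup.centralizer ({(pi x : PP)} : Set PP) with hC
  set T : Subgroup PP := CP (pi x) with hT
  have hTC : T ≤ C := by
    intro y hy
    rw [hC, mem_cent_pi]
    rw [hT, mem_CP_iff] at hy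
    refine ⟨1, by ring, ?_⟩
    rw [sc_one_eq, one_mul]
    exact hy.symm
  have hCN : C ≤ Subgroup.normalizer ((T : Subgroup PP) : Set PP) := by
    intro a ha
    rw [hC, Subgroup.mem_centralizer_singleton_iff] at ha
    have hconj : a * pi x * a⁻¹ = pi x := by rw [ha]; group
    rw [Subgroup.mem_normalizer_iff]
    intro y
    constructor
    · intro hy
      have := CP_conj a (pi x) y hy
      rwa [hconj] at this
    · intro hy
      have := CP_conj a⁻¹ (pi x) (a * y * a⁻¹) hy
      have e1 : a⁻¹ * (a * y * a⁻¹) * a⁻¹⁻¹ = y := by group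
      have e2 : a⁻¹ * (pi x : PP) * a⁻¹⁻¹ = pi x := by
        calc a⁻¹ * (pi x : PP) * a⁻¹⁻¹ = a⁻¹ * ((pi x : PP) * a) := by group
          _ = a⁻¹ * (a * pi x) := by rw [ha]
          _ = pi x := by group
      rwa [e1, e2] at this
  obtain ⟨w, hw⟩ := exists_inverter x hτ
  have hwC : (pi w : PP) ∈ C := by
    rw [hC, Subgroup.mem_centralizer_singleton_iff]
    have hε : (-1 : F) * (-1) = 1 := by ring
    have hinv : x⁻¹ = sc (-1) hε * x := by
      symm
      apply eq_inv_of_mul_eq_one_left
      have hd := det_rel x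
      have h01 : (x : Matrix (Fin 2) (Fin 2) F) 1 1 = - (x : Matrix (Fin 2) (Fin 2) F) 0 0 := by
        have : (x : Matrix (Fin 2) (Fin 2) F) 0 0 + (x : Matrix (Fin 2) (Fin 2) F) 1 1 = 0 := h0
        linear_combination this
      rw [h01] at hd
      ext i j
      fin_cases i <;> fin_cases j <;>
        simp [mul00, mul01, mul10, mul11, sc00, sc01, sc10, sc11, h01]
      · linear_combination hd
      · ring
      · ring
      · linear_combination hd
    have h1 : w * x = x⁻¹ * w := by
      calc w * x = w * x * w⁻¹ * w := by group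
        _ = x⁻¹ * w := by rw [hw]
    have h3 : (pi (w * x) : PP) = pi (x * w) := by
      rw [h1, hinv, mul_assoc, map_mul, sc_pi, one_mul]
    rw [map_mul, map_mul] at h3
    exact h3
  have hwT : (pi w : PP) ∉ T := not_mem_CP_of_inv x w hτ hw
  have hle : Nat.card C ≤ 2 * Nat.card T := by
    rw [← card_normalizer_torus x hτ]
    exact Subgroup.card_le_of_le hCN
  have hdvd : Nat.card T ∣ Nat.card C := Subgroup.card_dvd_of_le hTC
  obtain ⟨k, hk⟩ := hdvd
  have hTpos : 0 < Nat.card T := Nat.card_pos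
  have hk2 : k ≠ 1 := by
    rintro rfl
    have : T = C := Subgroup.eq_of_le_of_card_ge hTC (by omega)
    exact hwT (this ▸ hwC)
  have hk0 : k ≠ 0 := by
    rintro rfl
    have : 0 < Nat.card C := Nat.card_pos
    omega
  have hk3 : k ≤ 2 := by
    by_contra hh
    have : Nat.card T * 3 ≤ Nat.card T * k := Nat.mul_le_mul_left _ (by omega)
    omega
  have : k = 2 := by omega
  subst this
  rw [hk]; ring

lemma tr_ne_zero_of_sq (x : SL(2, F)) (h : ringChar F ≠ 2) (hτ : (tr x) ^ 2 = 4) : tr x ≠ 0 := by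
  intro h0
  rw [h0] at hτ
  have h22 : (2 : F) ≠ 0 := Ring.two_ne_zero h
  apply h22
  have : (2 : F) * 2 = 0 := by linear_combination -hτ
  simpa using this

lemma card_cent_unip (x : SL(2, F)) (hx : ¬ IsScalar x) (hτ : (tr x) ^ 2 = 4) :
    Nat.card (Subgroup.centralizer ({(pi x : PP)} : Set PP)) = Fintype.card F := by
  rw [cent_eq_CP x, card_CP_unip x hx hτ]
  by_cases h : ringChar F = 2
  · exact Or.inl h
  · exact Or.inr (tr_ne_zero_of_sq x h hτ)

lemma card_cent_split (x : SL(2, F)) (hτ : (tr x) ^ 2 ≠ 4) (u : F) (hu : u ^ 2 - tr x * u + 1 = 0)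
    (h : ringChar F = 2 ∨ tr x ≠ 0) :
    Nat.card (Roots1 F) * Nat.card (Subgroup.centralizer ({(pi x : PP)} : Set PP)) = Fintype.card F - 1 := by
  rw [cent_eq_CP x h, ← card_CP_mul]
  exact (cent_split x hτ u hu).2

lemma card_cent_nonsplit (x : SL(2, F)) (hτ : (tr x) ^ 2 ≠ 4) (hf : ∀ u : F, u ^ 2 - tr x * u + 1 ≠ 0)
    (h : ringChar F = 2 ∨ tr x ≠ 0) :
    Nat.card (Roots1 F) * Nat.card (Subgroup.centralizer ({(pi x : PP)} : Set PP)) = Fintype.card F + 1 := by
  rw [cent_eq_CP x h, ← card_CP_mul]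
  exact (cent_nonsplit x hτ hf).2

lemma sq_ne_four_of_tr_zero (x : SL(2, F)) (h2 : ringChar F ≠ 2) (h0 : tr x = 0) : (tr x) ^ 2 ≠ 4 := by
  intro h
  exact tr_ne_zero_of_sq x h2 h h0

lemma card_cent_split_zero (x : SL(2, F)) (h2 : ringChar F ≠ 2) (h0 : tr x = 0) (u : F)
    (hu : u ^ 2 - tr x * u + 1 = 0) :
    Nat.card (Subgroup.centralizer ({(pi x : PP)} : Set PP)) = Fintype.card F - 1 := by
  have h3 := card_CP_mul (F := F) x
  rw [(cent_split x (sq_ne_four_of_tr_zero x h2 h0) u hu).2, card_roots1_odd h2] at h3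
  rw [card_cent_tr_zero x h2 h0, ← h3]

lemma card_cent_nonsplit_zero (x : SL(2, F)) (h2 : ringChar F ≠ 2) (h0 : tr x = 0)
    (hf : ∀ u : F, u ^ 2 - tr x * u + 1 ≠ 0) :
    Nat.card (Subgroup.centralizer ({(pi x : PP)} : Set PP)) = Fintype.card F + 1 := by
  have h3 := card_CP_mul (F := F) x
  rw [(cent_nonsplit x (sq_ne_four_of_tr_zero x h2 h0) hf).2, card_roots1_odd h2] at h3
  rw [card_cent_tr_zero x h2 h0, ← h3]

/-- An element of `F` with `c ≠ 0`, `c⁴ ≠ 1`. -/
lemma exists_c4 (h7 : 7 ≤ Fintype.card F) : ∃ c : F, c ≠ 0 ∧ c ^ 4 ≠ 1 := by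
  classical
  by_contra h
  push_neg at h
  have hsub : (Finset.univ : Finset F) ⊆ insert 0 (Polynomial.nthRoots 4 (1 : F)).toFinset := by
    intro c _
    by_cases h0 : c = 0
    · simp [h0]
    · simp only [Finset.mem_insert, Multiset.mem_toFinset]
      right
      rw [Polynomial.mem_nthRoots (by norm_num)]
      exact h c h0
  have h1 := Finset.card_le_card hsub
  have h2 := Finset.card_insert_le (0 : F) (Polynomial.nthRoots 4 (1 : F)).toFinset
  have h3 : (Polynomial.nthRoots 4 (1 : F)).toFinset.card ≤ 4 :=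
    (Multiset.toFinset_card_le _).trans (Polynomial.card_nthRoots 4 (1 : F))
  rw [Finset.card_univ] at h1
  omega

/-- A non-zero trace of a non-split element. -/
lemma exists_tau (h7 : 7 ≤ Fintype.card F) : ∃ τ : F, τ ≠ 0 ∧ ∀ u : F, u ^ 2 - τ * u + 1 ≠ 0 := by
  classical
  by_contra h
  push_neg at h
  obtain ⟨c, hc, hc4⟩ := exists_c4 h7
  have hc2 : c * c ≠ 1 := by
    intro e
    apply hc4
    calc c ^ 4 = (c * c) * (c * c) := by ring
      _ = 1 := by rw [e]; ring
  have hc' : c⁻¹ ≠ c := by
    intro e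
    apply hc2
    nth_rewrite 1 [← e]
    exact inv_mul_cancel₀ hc
  have hsub : (Finset.univ.erase (0 : F)) ⊆
      ((Finset.univ.erase (0 : F)).erase c).image (fun u : F => u + u⁻¹) := by
    intro τ hτ
    have hτ0 : τ ≠ 0 := (Finset.mem_erase.mp hτ).1
    obtain ⟨u, hu⟩ := h τ hτ0
    have hu0 : u ≠ 0 := by
      rintro rfl
      simp at hu
    have hτu : τ = u + u⁻¹ := by
      field_simp
      linear_combination -hu
    rw [Finset.mem_image]
    by_cases huc : u = c
    · refine ⟨c⁻¹, ?_, ?_⟩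
      · simp [hc', hc]
      · rw [hτu, huc, inv_inv]; ring
    · refine ⟨u, ?_, hτu.symm⟩
      simp [huc, hu0]
  have h1 := Finset.card_le_card hsub
  have h2 := Finset.card_image_le (s := (Finset.univ.erase (0 : F)).erase c) (f := fun u : F => u + u⁻¹)
  rw [Finset.card_erase_of_mem (by simp [hc] : c ∈ Finset.univ.erase (0 : F)),
    Finset.card_erase_of_mem (Finset.mem_univ _), Finset.card_univ] at h2
  rw [Finset.card_erase_of_mem (Finset.mem_univ _), Finset.card_univ] at h1
  omega

lemma tr_nf' (t : F) : tr (nf (1 : F) t one_ne_zero) = t := by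
  simp [nf, tr, mk]

lemma sq_ne_four_of_no_root (t : F) (hf : ∀ u : F, u ^ 2 - t * u + 1 ≠ 0) : t ^ 2 ≠ 4 := by
  intro h
  have hh : (t - 2) * (t + 2) = 0 := by linear_combination h
  rcases mul_eq_zero.mp hh with h1 | h1
  · have : t = 2 := by linear_combination h1
    apply hf 1
    rw [this]
    ring
  · have : t = -2 := by linear_combination h1
    apply hf (-1)
    rw [this]
    ring

end Cfsg.Agent.Lib.Classical.Dick
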