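import Mathlib
import Cfsg.Agent.Lib.Classical.Dick.Pgl1

/-!
The types of subgroups of `PGL₂(F)`, via the embedding in `PSL₂` of a quadratic extension.
-/

set_option autoImplicit false
set_option linter.unusedSimpArgs false
set_option linter.unusedVariables false

namespace Cfsg.Agent.Lib.Classical.Dick

open Matrix
open scoped MatrixGroups
open Cfsg.Agent.Lib.KS2.SL2

variable {F : Type*} [Field F] [Fintype F]

local notation "PP" => Matrix.ProjectiveSpecialLinearGroup (Fin 2) F
local notation "PG" => Matrix.ProjGenLinGroup (Fin 2) F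

/-- Dickson's classification, with a normal Sylow subgroup in the local branch. -/
theorem dickson_main' {q : ℕ} (hF : Fintype.card F = q) (p : ℕ) [Fact p.Prime] [CharP F p] (H : Subgroup PP) :
    (∃ k : ℕ, (k ∣ (q + 1) / Nat.gcd 2 (q - 1) ∨ k ∣ (q - 1) / Nat.gcd 2 (q - 1)) ∧
      ((IsCyclic H ∧ Nat.card H = k) ∨ Nonempty (H ≃* DihedralGroup k))) ∨
    (∃ S : Sylow p H, (S : Subgroup H).Normal ∧ 1 < Nat.card (S : Subgroup H)) ∨
    Nonempty (H ≃* alternatingGroup (Fin 4)) ∨ Nonempty (H ≃* Equiv.Perm (Fin 4)) ∨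
    Nonempty (H ≃* alternatingGroup (Fin 5)) ∨
    (∃ S : Sylow p H, 4 ≤ Nat.card (S : Subgroup H) ∧ 1 < Nat.card (Sylow p H) ∧
      Good H (Nat.card (S : Subgroup H))) := by
  classical
  subst hF
  by_cases hn : ∃ S : Sylow p H, (S : Subgroup H).Normal ∧ 1 < Nat.card (S : Subgroup H)
  · exact Or.inr (Or.inl hn)
  push_neg at hn
  by_cases h4 : ∃ S : Sylow p H, 4 ≤ Nat.card (S : Subgroup H)
  · obtain ⟨S, h4⟩ := h4
    have hc : 1 < Nat.card (Sylow p H) := by
      by_contra hc
      haveI : Subsingleton (Sylow p H) := (Finite.card_le_one_iff_subsingleton).mp (by omega)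
      have h5 := hn S (Sylow.normal_of_subsingleton S)
      omega
    exact Or.inr (Or.inr (Or.inr (Or.inr (Or.inr ⟨S, h4, hc, p_case' p H S hc h4⟩))))
  push_neg at h4
  have hT := partH_types p H
  have hTor := Part.hasTypes_tor_of_small hT (fun S => by have := h4 S; omega)
  have hss : ∀ g : H, g ≠ 1 → ((partH H).C g).Normal → (tr (lf (g : PP))) ^ 2 ≠ 4 := by
    intro g hg hN hτ
    have hPT := pt_of_unip p H g hg hτ
    obtain ⟨S, hS⟩ := Part.exists_sylow_of_PT hT hg hPT
    have hnS : (S : Subgroup H).Normal := by rw [hS]; exact hN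
    have h1 := hn S hnS
    have hgS : g ∈ (S : Subgroup H) := by rw [hS]; exact (partH H).self g hg
    have h2 : 1 < Nat.card (S : Subgroup H) := by
      rw [Finite.one_lt_card_iff_nontrivial]
      exact ⟨⟨⟨g, hgS⟩, 1, fun h => hg (congrArg Subtype.val h)⟩⟩
    omega
  have hk : ∀ g : H, g ≠ 1 → ((partH H).C g).Normal →
      (Nat.card ((partH H).C g) ∣ (Fintype.card F + 1) / Nat.gcd 2 (Fintype.card F - 1) ∨
       Nat.card ((partH H).C g) ∣ (Fintype.card F - 1) / Nat.gcd 2 (Fintype.card F - 1)) := by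
    intro g hg hN
    obtain ⟨-, h2⟩ := CP_ss (lf (g : PP)) (hss g hg hN)
    rw [pi_lf] at h2
    have h3 := card_C_dvd H g
    rcases h2 with h2 | h2
    · right; rw [h2] at h3; exact h3
    · left; rw [h2] at h3; exact h3
  rcases Part.classify_tor (partH H) hTor with h | ⟨g, hg, h⟩ | ⟨g, hg, hi, h⟩ | h | h | h
  · left
    refine ⟨1, Or.inl (one_dvd _), Or.inl ⟨?_, h⟩⟩
    exact isCyclic_of_card_dvd_prime_or_one_aux h
  · left
    have hN : ((partH H).C g).Normal := by rw [h]; infer_instance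
    refine ⟨_, hk g hg hN, Or.inl ⟨?_, ?_⟩⟩
    · have h1 := (hTor g hg).cyc
      rw [h] at h1
      exact isCyclic_of_surjective (Subgroup.topEquiv : (⊤ : Subgroup H) ≃* H) (MulEquiv.surjective _)
    · rw [h]
      exact Nat.card_congr Subgroup.topEquiv.toEquiv.symm
  · left
    have hN : ((partH H).C g).Normal := Subgroup.normal_of_index_eq_two hi
    exact ⟨_, hk g hg hN, Or.inr h⟩
  · exact Or.inr (Or.inr (Or.inl h))
  · exact Or.inr (Or.inr (Or.inr (Or.inl h)))
  · exact Or.inr (Or.inr (Or.inr (Or.inr (Or.inl h))))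

/-- The types of subgroups of `PGL₂(F)`. -/
theorem pgl_types (p : ℕ) [Fact p.Prime] [CharP F p] (M : Subgroup PG) :
    (∃ k : ℕ, (IsCyclic M ∧ Nat.card M = k) ∨ Nonempty (M ≃* DihedralGroup k)) ∨
    (∃ S : Subgroup M, IsPGroup p S ∧ S.Normal ∧ S ≠ ⊥) ∨
    Nonempty (M ≃* alternatingGroup (Fin 4)) ∨ Nonempty (M ≃* Equiv.Perm (Fin 4)) ∨
    Nonempty (M ≃* alternatingGroup (Fin 5)) ∨
    (∃ (E : Type) (_ : Field E) (_ : Fintype E) (m : ℕ), 4 ≤ Fintype.card E ∧
      Fintype.card E ^ m = Fintype.card F ^ 2 ∧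
      (Nonempty (M ≃* Matrix.ProjectiveSpecialLinearGroup (Fin 2) E) ∨
        Nonempty (M ≃* Matrix.ProjGenLinGroup (Fin 2) E))) := by
  classical
  obtain ⟨n, -, hn⟩ := FiniteField.card F p
  haveI : Fintype (GaloisField p (2 * (n : ℕ))) := Fintype.ofFinite _
  have hK : Fintype.card F ^ 2 = Fintype.card (GaloisField p (2 * (n : ℕ))) := by
    rw [← Nat.card_eq_fintype_card (α := GaloisField p (2 * (n : ℕ))), GaloisField.card p _ (by
      have := n.pos
      omega), hn, ← pow_mul, mul_comm]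
  obtain ⟨H₀, ⟨e⟩⟩ := exists_pgl_subgroup (F := GaloisField p (2 * (n : ℕ))) F 2 (by norm_num) even_two hK
  let j : PG →* Matrix.ProjectiveSpecialLinearGroup (Fin 2) (GaloisField p (2 * (n : ℕ))) :=
    H₀.subtype.comp e.symm.toMonoidHom
  have hj : Function.Injective j := fun a b h => e.symm.injective (H₀.subtype_injective h)
  let iM : M ≃* M.map j := M.equivMapOfInjective j hj
  rcases dickson_main' rfl p (M.map j) with ⟨k, -, h⟩ | ⟨S, hS, hc⟩ | ⟨⟨i⟩⟩ | ⟨⟨i⟩⟩ | ⟨⟨i⟩⟩ | ⟨S, hS4, -, hG⟩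
  · left
    refine ⟨k, ?_⟩
    rcases h with ⟨h1, h3⟩ | ⟨⟨i⟩⟩
    · left
      haveI := h1
      refine ⟨isCyclic_of_surjective iM.symm iM.symm.surjective, ?_⟩
      rw [← h3]
      exact Nat.card_congr iM.toEquiv
    · right
      exact ⟨iM.trans i⟩
  · right; left
    refine ⟨(S : Subgroup (M.map j)).comap iM.toMonoidHom, ?_, ?_, ?_⟩
    · exact S.isPGroup'.comap_of_injective iM.toMonoidHom iM.injective
    · haveI := hS
      exact Subgroup.Normal.comap hS _
    · intro hb
      haveI : Nontrivial (S : Subgroup (M.map j)) := Finite.one_lt_card_iff_nontrivial.mp hc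
      obtain ⟨⟨y, hyS⟩, hy⟩ := exists_ne (1 : (S : Subgroup (M.map j)))
      have hy1 : y ≠ 1 := fun h => hy (Subtype.ext h)
      have h5 : iM.symm y ∈ (S : Subgroup (M.map j)).comap iM.toMonoidHom := by
        rw [Subgroup.mem_comap]
        change iM (iM.symm y) ∈ _
        rw [iM.apply_symm_apply]
        exact hyS
      rw [hb, Subgroup.mem_bot] at h5
      apply hy1
      have := congrArg iM h5
      rwa [iM.apply_symm_apply, map_one] at this
  · right; right; left
    exact ⟨iM.trans i⟩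
  · right; right; right; left
    exact ⟨iM.trans i⟩
  · right; right; right; right; left
    exact ⟨iM.trans i⟩
  · right; right; right; right; right
    obtain ⟨⟨m, hm⟩, -, -⟩ := good_facts hG
    obtain ⟨E, f, hE, -, -, -, -, hiso⟩ := hG
    haveI : Fintype E := Fintype.ofFinite _
    refine ⟨E, inferInstance, inferInstance, m, ?_, ?_, ?_⟩
    · rw [← Nat.card_eq_fintype_card, hE]
      exact hS4
    · rw [← Nat.card_eq_fintype_card, hE, hm, hK]
    · rcases hiso with ⟨⟨i⟩⟩ | ⟨⟨i⟩⟩
      · exact Or.inl ⟨iM.trans i⟩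
      · exact Or.inr ⟨iM.trans i⟩

/-- The Borel subgroup is the normaliser of the unipotent radical. -/
lemma normalizer_CP_uu_eq : Subgroup.normalizer ((CP (pi (uu (1 : F))) : Subgroup PP) : Set PP) = BP F := by
  apply le_antisymm (normalizer_CP_uu_le one_ne_zero)
  intro y hy
  rw [mem_BP] at hy
  apply Subgroup.mem_normalizer_fintype
  intro z hz
  exact tri_conj_mem one_ne_zero y z hy hz

/-- The normaliser of a unipotent member. -/
lemma card_normalizer_unip (x : SL(2, F)) (hx : ¬ IsScalar x) (hτ : (tr x) ^ 2 = 4) :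
    Nat.card (Roots1 F) * Nat.card (Subgroup.normalizer ((CP (pi x) : Subgroup PP) : Set PP)) =
      (Fintype.card F - 1) * Fintype.card F := by
  obtain ⟨ε, hε, ht⟩ := exists_eps _ hτ
  obtain ⟨b, hb, P, hP⟩ := exists_conj_ux _ hx ε hε ht
  let f := MulAut.conj P
  have hfx : f x = ux ε b hε := hP
  have hpi : (pi (f x) : PP) = pi (uu b) := by
    rw [hfx, pi_ux]
  have h1 : Nat.card (Subgroup.normalizer ((CP (pi x) : Subgroup PP) : Set PP)) =
      Nat.card (Subgroup.normalizer ((CP (pi (uu b)) : Subgroup PP) : Set PP)) := by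
    rw [← hpi, ← map_CP, ← Subgroup.map_equiv_normalizer_eq]
    exact Nat.card_congr ((indP f).subgroupMap _).toEquiv
  have h3 : (CP (pi (uu b)) : Subgroup PP) = CP (pi (uu 1)) :=
    CP_eq_of_mem _ _ (pi_uu_ne 1 one_ne_zero) (pi_uu_ne b hb) (pi_uu_comm b 1)
  rw [h1, h3, normalizer_CP_uu_eq]
  exact card_BP_eq

/-- Any element whose conjugates stay in its member gives the normaliser of the member. -/
theorem comap_eq_of_elt (h4 : 4 ≤ Fintype.card F) {M : Subgroup PG} (hM : IsCoatom M) (y : PP) (hy : y ≠ 1)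
    (hinv : ∀ u : GL (Fin 2) F, Matrix.ProjGenLinGroup.mk u ∈ M → indP (glConj u) y ∈ CP y) :
    M.comap (rhoP : PP →* PG) = Subgroup.normalizer ((CP y : Subgroup PP) : Set PP) := by
  apply comap_eq_normalizer h4 hM
  · intro u hu
    have h1 := map_CP (glConj u) (lf y)
    rw [pi_lf] at h1
    rw [h1, ← indP_pi, pi_lf]
    apply CP_eq_of_mem _ _ hy _ (hinv u hu)
    intro h
    apply hy
    exact (indP (glConj u)).injective (by rw [h, map_one])
  · intro h
    have := self_mem_CP y
    rw [h, Subgroup.mem_bot] at this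
    exact hy this
  · exact CP_ne_top y hy

end Cfsg.Agent.Lib.Classical.Dick
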