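import Mathlib
import Cfsg.Agent.Lib.Classical.Dick.Pgl2

/-!
Invariant subgroups defined by traces, and the degree of a subfield subgroup below a maximal subgroup of `PGL₂(F)`.
-/

set_option autoImplicit false
set_option linter.unusedSimpArgs false
set_option linter.unusedVariables false

namespace Cfsg.Agent.Lib.Classical.Dick

open Matrix
open scoped MatrixGroups
open Cfsg.Agent.Lib.KS2.SL2

variable {F : Type*} [Field F]

local notation "PP" => Matrix.ProjectiveSpecialLinearGroup (Fin 2) F
local notation "PG" => Matrix.ProjGenLinGroup (Fin 2) F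

/-- Traces of lifts of elements of `PSL₂(E)` lie in `E`. -/
lemma tr_mem_of_range (E : Subfield F) (x : SL(2, F)) (h : (pi x : PP) ∈ (embP E).range) : tr x ∈ E := by
  obtain ⟨y, hy⟩ := h
  obtain ⟨A, rfl⟩ := pi_surj y
  rw [embP_pi] at hy
  obtain ⟨ε, hε, e⟩ := (pi_eq_iff _ _).mp hy
  have h0 : (ε - 1) * (ε + 1) = 0 := by linear_combination hε
  have hε' : ε ∈ E := by
    rcases mul_eq_zero.mp h0 with h1 | h1
    · rw [sub_eq_zero.mp h1]
      exact E.one_mem
    · rw [eq_neg_of_add_eq_zero_left h1]
      exact E.neg_mem E.one_mem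
  rw [e]
  have h3 : tr (sc ε hε * emb E A) = ε * ((tr A : E) : F) := by
    rw [← tr_emb]
    simp [tr, mul00, mul11]
    ring
  rw [h3]
  exact E.mul_mem hε' (SetLike.coe_mem _)

/-- Membership in the twisted subfield subgroup through `f`. -/
lemma mem_map_symm_indP (f : SL(2, F) ≃* SL(2, F)) (R : Subgroup PP) (x : SL(2, F)) :
    (pi x : PP) ∈ R.map (indP f).symm.toMonoidHom ↔ (pi (f x) : PP) ∈ R := by
  rw [Subgroup.mem_map_equiv, MulEquiv.symm_symm, indP_pi]

/-- Trace-defined subgroups are invariant. -/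
theorem inv_rigid {M : Subgroup PG} {W : Subgroup PP} (hW : InvM M W) (E : Subfield F) (f : SL(2, F) ≃* SL(2, F))
    (hf : ∀ x, tr (f x) = tr x) (h1 : W.map (indP f).toMonoidHom ≤ (embP E).range)
    (h3 : ∀ x : SL(2, F), (∀ z : SL(2, F), (pi z : PP) ∈ W → tr (x * z) ∈ E) → (pi (f x) : PP) ∈ (embP E).range) :
    InvM M ((embP E).range.map (indP f).symm.toMonoidHom) := by
  have key : ∀ x : SL(2, F), (pi x : PP) ∈ (embP E).range.map (indP f).symm.toMonoidHom ↔
      ∀ z : SL(2, F), (pi z : PP) ∈ W → tr (x * z) ∈ E := by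
    intro x
    rw [mem_map_symm_indP]
    constructor
    · intro h z hz
      rw [← hf]
      apply tr_mem_of_range
      rw [map_mul, map_mul]
      apply Subgroup.mul_mem _ h
      apply h1
      exact ⟨pi z, hz, rfl⟩
    · exact h3 x
  intro u hu
  ext y
  obtain ⟨x, rfl⟩ := pi_surj y
  rw [Subgroup.mem_map_equiv, indP_symm_pi, key, key]
  constructor
  · intro h z hz
    have hz' : (pi ((glConj u).symm z) : PP) ∈ W := by
      rw [← indP_symm_pi, ← Subgroup.mem_map_equiv, hW u hu] at *
      exact hz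
    have h5 := h _ hz'
    rw [← tr_glConj u, map_mul, MulEquiv.apply_symm_apply, MulEquiv.apply_symm_apply] at h5
    exact h5
  · intro h z hz
    have hz' : (pi (glConj u z) : PP) ∈ W := by
      rw [← indP_pi, ← hW u hu]
      exact ⟨_, hz, rfl⟩
    have h5 := h _ hz'
    rw [← tr_glConj u, map_mul, MulEquiv.apply_symm_apply]
    exact h5

variable [Fintype F]

omit [Fintype F] in
/-- Entries from traces with root elements. -/
lemma pi_mem_of_tr_root (E : Subfield F) (x : SL(2, F)) (h0 : tr x ∈ E) (h1 : tr (x * uu 1) ∈ E)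
    (h3 : tr (x * ll 1) ∈ E) (h4 : tr (x * (uu 1 * ll 1)) ∈ E) [Finite F] : (pi x : PP) ∈ (embP E).range := by
  haveI : Fintype F := Fintype.ofFinite F
  rw [tr_mul_uu1] at h1
  rw [tr_mul_ll1] at h3
  rw [tr_mul_uu_ll] at h4
  have h0' : (x : Matrix (Fin 2) (Fin 2) F) 0 0 + (x : Matrix (Fin 2) (Fin 2) F) 1 1 ∈ E := h0
  have ec : (x : Matrix (Fin 2) (Fin 2) F) 1 0 ∈ E := by
    have := E.sub_mem h1 h0'
    convert this using 1
    ring
  have eb : (x : Matrix (Fin 2) (Fin 2) F) 0 1 ∈ E := by
    have := E.sub_mem h3 h0'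
    convert this using 1
    ring
  have ea : (x : Matrix (Fin 2) (Fin 2) F) 0 0 ∈ E := by
    have := E.sub_mem (E.sub_mem (E.sub_mem h4 h0') eb) ec
    convert this using 1
    ring
  have ed : (x : Matrix (Fin 2) (Fin 2) F) 1 1 ∈ E := by
    have := E.sub_mem h0' ea
    convert this using 1
    ring
  apply mem_of_entries (embP E).range E (fun e he => uu_mem_range E e he) (fun e he => ll_mem_range E e he)
  intro i j
  fin_cases i <;> fin_cases j
  · exact ea
  · exact eb
  · exact ec
  · exact ed

/-- The subfield subgroup has index two in the `PGL₂` subgroup. -/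
lemma normalizer_range_embP (h2 : (2 : F) ≠ 0) (E : Subfield F) (hsq : ∀ δ ∈ E, δ ≠ 0 → ∃ (c : F) (hc : c ≠ 0),
    c ^ 2 = δ ∧ (pi : SL(2, F) →* PP) (dg c hc) ∈ (⊤ : Subgroup PP)) :
    (psiP E ⊤ hsq).range ≤ Subgroup.normalizer (((embP E).range : Subgroup PP) : Set PP) := by
  classical
  haveI : Fintype E := Fintype.ofFinite _
  have hle := range_embP_le_psiP E ⊤ hsq
  have h1 := Subgroup.card_mul_index ((embP E).range.subgroupOf (psiP E ⊤ hsq).range)
  have h3 : Nat.card ((embP E).range.subgroupOf (psiP E ⊤ hsq).range) = Nat.card (embP E).range :=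
    Nat.card_congr (Subgroup.subgroupOfEquivOfLe hle).toEquiv
  rw [h3, card_range_embP, card_range_psiP, card_PGL2, ← Nat.card_eq_fintype_card (α := E), ← two_card_PSL h2 E] at h1
  have hpos : 0 < Nat.card (Matrix.ProjectiveSpecialLinearGroup (Fin 2) E) := Nat.card_pos
  have h5 : ((embP E).range.subgroupOf (psiP E ⊤ hsq).range).index = 2 := by
    apply Nat.eq_of_mul_eq_mul_left hpos
    rw [h1]
    ring
  haveI : ((embP E).range.subgroupOf (psiP E ⊤ hsq).range).Normal := Subgroup.normal_of_index_eq_two h5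
  exact (Subgroup.normal_subgroupOf_iff_le_normalizer hle).mp inferInstance

/-- The degree of a subfield subgroup below a maximal subgroup of `PGL₂`. -/
theorem finish_r (h2 : (2 : F) ≠ 0) (h4 : 4 ≤ Fintype.card F) {M : Subgroup PG} (hM : IsCoatom M)
    (hML : ¬ (slG : SL(2, F) →* PG).range ≤ M) (E : Subfield F) (f : SL(2, F) ≃* SL(2, F)) (hf : ∀ x, tr (f x) = tr x)
    (hs : 3 ≤ Nat.card E) (he : (M.comap (rhoP : PP →* PG)).map (indP f).toMonoidHom = (embP E).range) :
    ∃ r : ℕ, r.Prime ∧ Odd r ∧ Nat.card E ^ r = Fintype.card F := by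
  classical
  haveI : Fintype E := Fintype.ofFinite _
  set H := M.comap (rhoP : PP →* PG) with hH
  have hHtop : H ≠ ⊤ := by
    intro h
    apply hML
    rintro _ ⟨x, rfl⟩
    have : (pi x : PP) ∈ H := by rw [h]; exact Subgroup.mem_top _
    exact this
  have hcH : Nat.card H = Nat.card (Matrix.ProjectiveSpecialLinearGroup (Fin 2) E) := by
    rw [← card_map_indP H f, he, card_range_embP]
  have hcE := two_card_PSL h2 E
  have hbig : 9 ≤ Nat.card E ^ 2 := by nlinarith
  have hHbot : H ≠ ⊥ := by
    intro h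
    rw [h, Subgroup.card_bot] at hcH
    have h5 : 3 * 8 ≤ Nat.card E * (Nat.card E ^ 2 - 1) := Nat.mul_le_mul hs (by omega)
    omega
  have hm : Nat.card E ^ Module.finrank E F = Fintype.card F := by
    rw [Nat.card_eq_fintype_card]
    exact (Module.card_eq_pow_finrank (K := E) (V := F)).symm
  set r := Module.finrank E F with hr
  have hr0 : r ≠ 0 := Module.finrank_pos.ne'
  have hr1 : r ≠ 1 := by
    intro h1
    rw [h1, pow_one] at hm
    apply hHtop
    apply Subgroup.eq_top_of_card_eq
    rw [hcH]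
    have h5 := hPP_eq h2
    rw [← hm] at h5
    omega
  have hNH : H = Subgroup.normalizer ((H : Subgroup PP) : Set PP) :=
    comap_eq_normalizer h4 hM (invM_comap M) hHbot hHtop
  refine ⟨r, ?_, ?_, hm⟩
  · by_contra hnp
    obtain ⟨a, b, ha, hb, hab⟩ := exists_mul_of_not_prime r (by omega) hnp
    obtain ⟨E₂, hle, hE₂⟩ := exists_subfield_between E a b (by omega) (by omega) (by rw [hab, hm])
    have hW : H.map (indP f).toMonoidHom ≤ (embP E₂).range := by
      rw [he]
      exact range_embP_mono E E₂ hle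
    have hrootu : (pi (f.symm (uu (1 : F))) : PP) ∈ H := by
      apply (mem_map_indP f H _).mp
      rw [he]
      exact uu_mem_range E 1 E.one_mem
    have hrootl : (pi (f.symm (ll (1 : F))) : PP) ∈ H := by
      apply (mem_map_indP f H _).mp
      rw [he]
      exact ll_mem_range E 1 E.one_mem
    have hbasis : ∀ x : SL(2, F), (∀ z : SL(2, F), (pi z : PP) ∈ H → tr (x * z) ∈ E₂) →
        (pi (f x) : PP) ∈ (embP E₂).range := by
      intro x hx
      have key : ∀ w : SL(2, F), (pi (f.symm w) : PP) ∈ H → tr (f x * w) ∈ E₂ := by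
        intro w hw
        have := hx _ hw
        rw [← hf, map_mul, MulEquiv.apply_symm_apply] at this
        exact this
      apply pi_mem_of_tr_root
      · have := key 1 (by rw [map_one, map_one]; exact H.one_mem)
        rwa [mul_one] at this
      · exact key _ hrootu
      · exact key _ hrootl
      · apply key
        rw [map_mul, map_mul]
        exact H.mul_mem hrootu hrootl
    have hinv := inv_rigid (invM_comap M) E₂ f hf hW hbasis
    set K := (embP E₂).range.map (indP f).symm.toMonoidHom with hK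
    have hHK : H ≤ K := by
      intro y hy
      obtain ⟨x, rfl⟩ := pi_surj y
      rw [hK, mem_map_symm_indP]
      exact hW ⟨_, hy, rfl⟩
    have hcK : Nat.card K = Nat.card (Matrix.ProjectiveSpecialLinearGroup (Fin 2) E₂) := by
      rw [hK, ← card_range_embP]
      exact (Nat.card_congr ((indP f).symm.subgroupMap _).toEquiv).symm
    have hs2 : 3 ≤ Nat.card E₂ := by
      rw [hE₂]
      calc 3 ≤ Nat.card E := hs
        _ = Nat.card E ^ 1 := (pow_one _).symm
        _ ≤ Nat.card E ^ a := Nat.pow_le_pow_right (by omega) (by omega)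
    have hcE₂ := two_card_PSL h2 E₂
    have hKtop : K ≠ ⊤ := by
      apply ne_top_of_card_le K (Nat.card E₂) b hs2 hb (by rw [hE₂, ← pow_mul, hab, hm])
      rw [hcK]
      omega
    have hKbot : K ≠ ⊥ := by
      intro h
      apply hHbot
      rw [eq_bot_iff, ← h]
      exact hHK
    have hNK := comap_eq_normalizer h4 hM hinv hKbot hKtop
    have hKH : K ≤ H := by
      rw [hH, hNK]
      exact Subgroup.le_normalizer
    have heq : H = K := le_antisymm hHK hKH
    have hlt := card_PSL_lt _ _ _ _ _ _ hs (by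
      rw [hE₂]
      exact Nat.pow_le_pow_right (by omega) ha) (by norm_num : 1 ≤ 2) (by norm_num : 2 ≤ 2) hcE hcE₂
    rw [heq, hcK] at hcH
    omega
  · rcases Nat.even_or_odd r with hev | hod
    swap
    · exact hod
    exfalso
    have hsq := hsq_top E r hev hm
    have hN := normalizer_range_embP h2 E hsq
    have hNH' : Subgroup.normalizer (((embP E).range : Subgroup PP) : Set PP) = (embP E).range := by
      rw [← he, ← Subgroup.map_equiv_normalizer_eq, ← hNH]
    rw [hNH'] at hN
    have hc1 : Nat.card (psiP E ⊤ hsq).range ≤ Nat.card (embP E).range := Subgroup.card_le_of_le hN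
    rw [card_range_psiP, card_range_embP, card_PGL2, ← Nat.card_eq_fintype_card (α := E)] at hc1
    have h6 : 0 < Nat.card E * (Nat.card E ^ 2 - 1) := Nat.mul_pos (by omega) (by omega)
    omega

end Cfsg.Agent.Lib.Classical.Dick
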