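import Mathlib
import Cfsg.Agent.Lib.Classical.Dick.Pgl3

/-!
Maximal subgroups of `PGL₂(F)` not containing `PSL₂(F)`: the local, cyclic, dihedral and small branches.
-/

set_option autoImplicit false
set_option linter.unusedSimpArgs false
set_option linter.unusedVariables false

namespace Cfsg.Agent.Lib.Classical.Dick

open Matrix
open scoped MatrixGroups
open Cfsg.Agent.Lib.KS2.SL2

variable {F : Type*} [Field F]

local notation "PP" => Matrix.ProjectiveSpecialLinearGroup (Fin 2) F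
local notation "PG" => Matrix.ProjGenLinGroup (Fin 2) F

lemma indP_conj (P : SL(2, F)) : indP (MulAut.conj P) = MulAut.conj (pi P : PP) := by
  ext y
  obtain ⟨z, rfl⟩ := pi_surj y
  rw [indP_pi, MulAut.conj_apply, MulAut.conj_apply, map_mul, map_mul, map_inv]

variable [Fintype F]

lemma tr_sq_of_pow' (p : ℕ) [Fact p.Prime] [CharP F p] (y : PP) (hy1 : y ≠ 1) (k : ℕ) (hk : y ^ p ^ k = 1) :
    (tr (lf y)) ^ 2 = 4 :=
  tr_sq_of_pow p ⊤ ⟨y, Subgroup.mem_top y⟩ (fun h => hy1 (congrArg Subtype.val h)) k (Subtype.ext hk)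

/-- A Sylow `p`-subgroup of `PSL₂` is the member of any of its non-trivial elements. -/
lemma sylow_CP (p : ℕ) [Fact p.Prime] [CharP F p] (Q : Sylow p PP) (y : PP) (hy : y ∈ (Q : Subgroup PP)) (hy1 : y ≠ 1) :
    (Q : Subgroup PP) = CP y := by
  obtain ⟨k, hk⟩ := Q.isPGroup' ⟨y, hy⟩
  have hk' : y ^ p ^ k = 1 := congrArg Subtype.val hk
  have hτ := tr_sq_of_pow' p y hy1 k hk'
  have hns : ¬ IsScalar (lf y) := not_scalar_of_ne_one (by rwa [pi_lf])
  obtain ⟨Q₀, hQ₀⟩ := exists_sylow_CP p (lf y) hns hτ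
  rw [pi_lf] at hQ₀
  obtain ⟨g, hg⟩ := MulAction.exists_smul_eq PP Q₀ Q
  have h3 : ((g • Q₀ : Sylow p PP) : Subgroup PP) = (Q₀ : Subgroup PP).map (MulAut.conj g).toMonoidHom := rfl
  have h5 := map_CP (MulAut.conj (lf g)) (lf y)
  rw [indP_conj, pi_lf, pi_lf] at h5
  rw [hg, hQ₀, h5] at h3
  set g' : PP := pi (MulAut.conj (lf g) (lf y)) with hg'
  have hg'1 : g' ≠ 1 := by
    rw [hg', MulAut.conj_apply, map_mul, map_mul, map_inv, pi_lf, pi_lf]
    intro h
    apply hy1
    have : g * y * g⁻¹ * g = g := by rw [h, one_mul]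
    simpa using this
  rw [h3] at hy ⊢
  exact (CP_eq_of_mem g' y hg'1 hy1 hy).symm

/-- Elements of odd order lie in `L`. -/
lemma mem_L_of_pow_odd (h2 : (2 : F) ≠ 0) (g : PG) (n : ℕ) (hn : Odd n) (h : g ^ n = 1) :
    g ∈ (slG : SL(2, F) →* PG).range := by
  obtain ⟨j, rfl⟩ := hn
  have e : g = g ^ (j + 1) * g ^ (j + 1) := by
    rw [← pow_add]
    have : j + 1 + (j + 1) = (2 * j + 1) + 1 := by ring
    rw [this, pow_succ, h, one_mul]
  rw [e, Subgroup.mul_mem_iff_of_index_two (index_range_slG h2)]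

/-- A non-trivial normal `p`-subgroup gives the Borel subgroup. -/
theorem branch_normal_p (p : ℕ) [Fact p.Prime] [CharP F p] (hp2 : p ≠ 2) (h2 : (2 : F) ≠ 0) (h4 : 4 ≤ Fintype.card F)
    {M : Subgroup PG} (hM : IsCoatom M) {S : Subgroup M} (hS : IsPGroup p S) (hn : S.Normal) (h1 : S ≠ ⊥) :
    ∃ y : PP, y ≠ 1 ∧ (tr (lf y)) ^ 2 = 4 ∧
      M.comap (rhoP : PP →* PG) = Subgroup.normalizer ((CP y : Subgroup PP) : Set PP) := by
  classical
  have hpp : p.Prime := Fact.out
  have hodd : Odd p := hpp.odd_of_ne_two hp2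
  obtain ⟨s, hsS, hs1⟩ := (Subgroup.ne_bot_iff_exists_ne_one).mp h1 |>.elim (fun s hs => (⟨s.1, s.2, fun h => hs (Subtype.ext h)⟩ : ∃ s : M, s ∈ S ∧ s ≠ 1))
  have hpow : ∀ s ∈ S, ∃ k : ℕ, ((s : M) : PG) ^ p ^ k = 1 := by
    intro s hs
    obtain ⟨k, hk⟩ := hS ⟨s, hs⟩
    refine ⟨k, ?_⟩
    have := congrArg (fun t : S => ((t : M) : PG)) hk
    simpa using this
  have hSL : ∀ s ∈ S, ∃ y : PP, rhoP y = ((s : M) : PG) := by
    intro s hs
    obtain ⟨k, hk⟩ := hpow s hs
    exact (mem_range_slG_iff _).mp (mem_L_of_pow_odd h2 _ _ hodd.pow hk)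
  obtain ⟨y, hy⟩ := hSL s hsS
  have hy1 : y ≠ 1 := by
    rintro rfl
    rw [map_one] at hy
    exact hs1 (Subtype.ext hy.symm)
  let S' : Subgroup PP := (S.map M.subtype).comap (rhoP : PP →* PG)
  have hS'p : IsPGroup p S' := by
    rintro ⟨y', s', hs', e⟩
    obtain ⟨k, hk⟩ := hpow s' hs'
    refine ⟨k, ?_⟩
    apply Subtype.ext
    apply rhoP_injective
    have e' : rhoP y' = ((s' : M) : PG) := e.symm
    change rhoP (y' ^ p ^ k) = rhoP 1
    rw [map_pow, e', hk, map_one]
  obtain ⟨Q, hQ⟩ := hS'p.exists_le_sylow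
  have hyS' : y ∈ S' := ⟨s, hsS, hy.symm⟩
  have hQy := sylow_CP p Q y (hQ hyS') hy1
  have hτ : (tr (lf y)) ^ 2 = 4 := by
    obtain ⟨k, hk⟩ := hS'p ⟨y, hyS'⟩
    exact tr_sq_of_pow' p y hy1 k (congrArg Subtype.val hk)
  refine ⟨y, hy1, hτ, comap_eq_of_elt h4 hM y hy1 ?_⟩
  intro u hu
  rw [← hQy]
  apply hQ
  change rhoP (indP (glConj u) y) ∈ S.map M.subtype
  rw [← conj_rhoP, hy]
  refine ⟨(⟨_, hu⟩ : M) * s * (⟨_, hu⟩ : M)⁻¹, hn.conj_mem s hsS _, rfl⟩

/-- Rotations. -/
lemma exists_rot {A : Type*} [Group A] (k : ℕ) (hk : 3 ≤ k)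
    (h : (IsCyclic A ∧ Nat.card A = k) ∨ Nonempty (A ≃* DihedralGroup k)) :
    ∃ z : A, z * z ≠ 1 ∧ ∀ g : A, g * (z * z) * g⁻¹ = z * z ∨ g * (z * z) * g⁻¹ = (z * z)⁻¹ := by
  rcases h with ⟨hc, hcard⟩ | ⟨⟨i⟩⟩
  · obtain ⟨z, hz⟩ := IsCyclic.exists_ofOrder_eq_natCard (α := A)
    refine ⟨z, ?_, fun g => Or.inl ?_⟩
    · intro h
      have h3 : orderOf z ∣ 2 := orderOf_dvd_of_pow_eq_one (by rw [sq]; exact h)
      rw [hz, hcard] at h3
      have := Nat.le_of_dvd (by norm_num) h3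
      omega
    · letI := IsCyclic.commGroup (α := A)
      exact mul_inv_cancel_comm _ _
  · refine ⟨i.symm (DihedralGroup.r 1), ?_, ?_⟩
    · intro h
      rw [← map_mul, DihedralGroup.r_mul_r] at h
      have h3 : (DihedralGroup.r (1 + 1) : DihedralGroup k) = 1 := by
        have := congrArg i h
        simpa using this
      have h5 : (1 + 1 : ZMod k) = 0 := DihedralGroup.r.inj h3
      have h6 : ((2 : ℕ) : ZMod k) = 0 := by
        rw [← h5]
        norm_num
      have h7 := (ZMod.natCast_eq_zero_iff 2 k).mp h6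
      have := Nat.le_of_dvd (by norm_num) h7
      omega
    · intro g
      have hd : ∀ d : DihedralGroup k, d * (DihedralGroup.r 1 * DihedralGroup.r 1) * d⁻¹ = DihedralGroup.r 1 * DihedralGroup.r 1 ∨
          d * (DihedralGroup.r 1 * DihedralGroup.r 1) * d⁻¹ = (DihedralGroup.r 1 * DihedralGroup.r 1)⁻¹ := by
        rintro (a | a)
        · left
          simp [DihedralGroup.inv_r]
        · right
          simp [DihedralGroup.inv_r, DihedralGroup.inv_sr]
      rcases hd (i g) with h6 | h6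
      · left
        apply i.injective
        simp only [map_mul, map_inv, i.apply_symm_apply]
        exact h6
      · right
        apply i.injective
        simp only [map_mul, map_inv, i.apply_symm_apply]
        exact h6

/-- A rotation gives the normaliser of a member. -/
theorem branch_rot (h2 : (2 : F) ≠ 0) (h4 : 4 ≤ Fintype.card F) {M : Subgroup PG} (hM : IsCoatom M) (z : M)
    (hz : z * z ≠ 1) (hc : ∀ g : M, g * (z * z) * g⁻¹ = z * z ∨ g * (z * z) * g⁻¹ = (z * z)⁻¹) :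
    ∃ y : PP, y ≠ 1 ∧ M.comap (rhoP : PP →* PG) = Subgroup.normalizer ((CP y : Subgroup PP) : Set PP) := by
  have hL : ((z * z : M) : PG) ∈ (slG : SL(2, F) →* PG).range := by
    change (z : PG) * (z : PG) ∈ _
    rw [Subgroup.mul_mem_iff_of_index_two (index_range_slG h2)]
  obtain ⟨y, hy⟩ := (mem_range_slG_iff _).mp hL
  have hy1 : y ≠ 1 := by
    rintro rfl
    rw [map_one] at hy
    exact hz (Subtype.ext hy.symm)
  refine ⟨y, hy1, comap_eq_of_elt h4 hM y hy1 ?_⟩
  intro u hu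
  rcases hc ⟨_, hu⟩ with h | h
  · have e : indP (glConj u) y = y := by
      apply rhoP_injective
      rw [← conj_rhoP, hy]
      exact congrArg Subtype.val h
    rw [e]
    exact self_mem_CP y
  · have e : indP (glConj u) y = y⁻¹ := by
      apply rhoP_injective
      rw [← conj_rhoP, hy, map_inv, hy]
      exact congrArg Subtype.val h
    rw [e]
    exact Subgroup.inv_mem _ (self_mem_CP y)

/-- The normaliser of a Klein group has order at least twelve. -/
lemma twelve_le_normalizer (h2 : (2 : F) ≠ 0) (M : Subgroup PP) (hK : IsKleinFour M) :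
    12 ≤ Nat.card (Subgroup.normalizer (M : Set PP)) := by
  classical
  have hc : Nat.card M = 4 := hK.card_four
  have hsq : ∀ z ∈ M, z * z = 1 := by
    intro z hz
    have h1 := hK.exponent_two
    have h3 : (⟨z, hz⟩ : M) ^ 2 = 1 := by
      have := Monoid.pow_exponent_eq_one (⟨z, hz⟩ : M)
      rwa [h1] at this
    rw [← sq]
    exact congrArg Subtype.val h3
  let K : Set (Subgroup PP) := {W | ∃ g : PP, W = M.map (MulAut.conj g).toMonoidHom}
  have h5 := Cfsg.Agent.Lib.Classical.P2.card_of_transitive M K (fun W hW => hW) (fun g => ⟨g, rfl⟩)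
  have h6 := Cfsg.Agent.Lib.Classical.P2.card_klein h2 (F := F)
  have hKsub : Nat.card K ≤ Nat.card {V : Subgroup PP // IsKleinFour V} := by
    apply Nat.card_le_card_of_injective (fun W : K => (⟨W.1, by
      obtain ⟨W, g, rfl⟩ := W
      apply Cfsg.Agent.Lib.Classical.P2.klein_of_card
      · rw [← hc]
        exact (Nat.card_congr ((MulAut.conj g).subgroupMap M).toEquiv).symm
      · rintro _ ⟨z, hz, rfl⟩
        change (MulAut.conj g).toMonoidHom z * (MulAut.conj g).toMonoidHom z = 1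
        rw [← map_mul, hsq z hz, map_one]⟩ : {V : Subgroup PP // IsKleinFour V}))
    intro a b h
    have h' := congrArg Subtype.val h
    exact Subtype.ext h'
  have hpos : 0 < Nat.card {V : Subgroup PP // IsKleinFour V} := by
    haveI : Nonempty {V : Subgroup PP // IsKleinFour V} := ⟨⟨M, hK⟩⟩
    exact Nat.card_pos
  have h7 : Nat.card {V : Subgroup PP // IsKleinFour V} * 12 ≤
      Nat.card {V : Subgroup PP // IsKleinFour V} * Nat.card (Subgroup.normalizer (M : Set PP)) := by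
    calc Nat.card {V : Subgroup PP // IsKleinFour V} * 12 = 12 * Nat.card {V : Subgroup PP // IsKleinFour V} := by ring
      _ = Nat.card PP := h6
      _ = Nat.card K * Nat.card (Subgroup.normalizer (M : Set PP)) := h5.symm
      _ ≤ _ := Nat.mul_le_mul_right _ hKsub
  exact Nat.le_of_mul_le_mul_left h7 hpos

set_option maxRecDepth 100000 in
private lemma dih2_sq' : ∀ x : DihedralGroup 2, x * x = 1 := by decide

/-- `M ∩ L` is not a Klein group. -/
theorem not_klein_comap (h2 : (2 : F) ≠ 0) (h4 : 4 ≤ Fintype.card F) {M : Subgroup PG} (hM : IsCoatom M)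
    (hML : ¬ (slG : SL(2, F) →* PG).range ≤ M) (i : M.comap (rhoP : PP →* PG) ≃* DihedralGroup 2) : False := by
  classical
  set H := M.comap (rhoP : PP →* PG) with hH
  have hc : Nat.card H = 4 := by
    rw [Nat.card_congr i.toEquiv, DihedralGroup.nat_card]
  have hsq : ∀ z ∈ H, z * z = 1 := by
    intro z hz
    have h1 := dih2_sq' (i ⟨z, hz⟩)
    rw [← map_mul] at h1
    have h3 : (⟨z, hz⟩ : H) * ⟨z, hz⟩ = 1 := i.injective (by rw [h1, map_one])
    exact congrArg Subtype.val h3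
  have hK : IsKleinFour H := Cfsg.Agent.Lib.Classical.P2.klein_of_card hc hsq
  have hHtop : H ≠ ⊤ := by
    intro h
    apply hML
    rintro _ ⟨x, rfl⟩
    have : (pi x : PP) ∈ H := by rw [h]; exact Subgroup.mem_top _
    exact this
  have hHbot : H ≠ ⊥ := by
    intro h
    rw [h, Subgroup.card_bot] at hc
    omega
  have hNH : H = Subgroup.normalizer ((H : Subgroup PP) : Set PP) :=
    comap_eq_normalizer h4 hM (invM_comap M) hHbot hHtop
  have h12 := twelve_le_normalizer h2 H hK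
  rw [← hNH, hc] at h12
  omega

/-- The torus data. -/
theorem branch_cyc_dih (hodd : Odd (Fintype.card F)) (h2 : (2 : F) ≠ 0) (h4 : 4 ≤ Fintype.card F) {M : Subgroup PG}
    (hM : IsCoatom M) (hML : ¬ (slG : SL(2, F) →* PG).range ≤ M) (k : ℕ)
    (h : (IsCyclic M ∧ Nat.card M = k) ∨ Nonempty (M ≃* DihedralGroup k)) :
    (∃ y : PP, y ≠ 1 ∧ (tr (lf y)) ^ 2 = 4 ∧
      M.comap (rhoP : PP →* PG) = Subgroup.normalizer ((CP y : Subgroup PP) : Set PP)) ∨
    (∃ x : SL(2, F), (tr x) ^ 2 ≠ 4 ∧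
      M.comap (rhoP : PP →* PG) = Subgroup.normalizer ((CP (pi x) : Subgroup PP) : Set PP) ∧
      3 ≤ Nat.card (CP (pi x) : Subgroup PP) ∧
      Nonempty (M ≃* DihedralGroup (2 * Nat.card (CP (pi x) : Subgroup PP)))) := by
  classical
  have hcM : 0 < Nat.card M := Nat.card_pos
  by_cases hk : k ≤ 2
  · exfalso
    apply not_small_coatom hodd hM
    rcases h with ⟨-, h1⟩ | ⟨⟨i⟩⟩
    · rw [h1]
      have : k = 1 ∨ k = 2 := by omega
      rcases this with rfl | rfl <;> norm_num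
    · rw [Nat.card_congr i.toEquiv, DihedralGroup.nat_card] at hcM ⊢
      have : k = 1 ∨ k = 2 := by omega
      rcases this with rfl | rfl <;> norm_num
  obtain ⟨z, hz, hc⟩ := exists_rot k (by omega) h
  obtain ⟨y, hy1, hNy⟩ := branch_rot h2 h4 hM z hz hc
  by_cases hτ : (tr (lf y)) ^ 2 = 4
  · exact Or.inl ⟨y, hy1, hτ, hNy⟩
  right
  refine ⟨lf y, hτ, ?_⟩
  rw [pi_lf]
  obtain ⟨iD⟩ := normalizer_dihedral (lf y) hτ
  rw [pi_lf, ← hNy] at iD
  set T : Subgroup PP := CP y with hT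
  have hT1 : Nat.card T ≠ 1 := by
    intro h1
    haveI : Subsingleton T := (Nat.card_eq_one_iff_unique.mp h1).1
    have : (⟨y, self_mem_CP y⟩ : T) = 1 := Subsingleton.elim _ _
    exact hy1 (congrArg Subtype.val this)
  have hT2 : Nat.card T ≠ 2 := by
    intro h1
    rw [h1] at iD
    exact not_klein_comap h2 h4 hM hML iD
  have hT0 : 0 < Nat.card T := Nat.card_pos
  have hcH : Nat.card (M.comap (rhoP : PP →* PG)) = 2 * Nat.card T := by
    rw [Nat.card_congr iD.toEquiv, DihedralGroup.nat_card]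
  have hcard := two_card_comap h2 hM hML
  rcases h with ⟨h1, h3⟩ | ⟨⟨i⟩⟩
  · exfalso
    haveI := h1
    let j : M.comap (rhoP : PP →* PG) →* M := (rhoP.comp (M.comap (rhoP : PP →* PG)).subtype).codRestrict M (fun y => y.2)
    have hj : Function.Injective j := by
      intro a b hab
      have := congrArg Subtype.val hab
      exact Subtype.ext (rhoP_injective this)
    haveI : IsCyclic (M.comap (rhoP : PP →* PG)) := isCyclic_of_injective j hj
    haveI : IsCyclic (DihedralGroup (Nat.card T)) := isCyclic_of_surjective iD iD.surjective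
    exact DihedralGroup.not_isCyclic hT1 inferInstance
  · have hkk : k = 2 * Nat.card T := by
      have h5 : Nat.card M = 2 * k := by rw [Nat.card_congr i.toEquiv, DihedralGroup.nat_card]
      omega
    rw [hkk] at i
    exact ⟨hNy, by omega, ⟨i⟩⟩

/-- A maximal subgroup not containing `L` is not simple. -/
theorem simple_no (h2 : (2 : F) ≠ 0) {M : Subgroup PG} (hM : IsCoatom M) (hML : ¬ (slG : SL(2, F) →* PG).range ≤ M)
    {A : Type*} [Group A] [IsSimpleGroup A] (i : M ≃* A) (hc : Nat.card A ≠ 2) : False := by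
  classical
  obtain ⟨g, hgM, hgL⟩ := exists_not_mem_L h2 hM hML
  haveI hnL : (slG : SL(2, F) →* PG).range.Normal := Subgroup.normal_of_index_eq_two (index_range_slG h2)
  set K := (slG : SL(2, F) →* PG).range.subgroupOf M with hK
  haveI hnK : K.Normal := Subgroup.Normal.subgroupOf hnL M
  have hnK' : (K.map i.toMonoidHom).Normal := Subgroup.Normal.map hnK _ i.surjective
  rcases IsSimpleGroup.eq_bot_or_eq_top_of_normal _ hnK' with h | h
  · have hbot : K = ⊥ := by
      rw [Subgroup.map_eq_bot_iff_of_injective _ i.injective] at h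
      exact h
    have hcomap : M.comap (rhoP : PP →* PG) = ⊥ := by
      rw [eq_bot_iff]
      intro y hy
      have h3 : (⟨rhoP y, hy⟩ : M) ∈ K := by
        rw [hK, Subgroup.mem_subgroupOf]
        exact (mem_range_slG_iff _).mpr ⟨y, rfl⟩
      rw [hbot, Subgroup.mem_bot] at h3
      rw [Subgroup.mem_bot]
      apply rhoP_injective
      rw [map_one]
      exact congrArg Subtype.val h3
    have h3 := two_card_comap h2 hM hML
    rw [hcomap, Subgroup.card_bot, Nat.card_congr i.toEquiv] at h3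
    exact hc h3
  · apply hgL
    have h3 : K = ⊤ := by
      rw [eq_top_iff]
      intro a _
      have h5 : i a ∈ K.map i.toMonoidHom := by
        rw [h]
        exact Subgroup.mem_top _
      obtain ⟨b, hb, e⟩ := h5
      have : b = a := i.injective e
      rwa [← this]
    have h5 : (⟨g, hgM⟩ : M) ∈ K := by
      rw [h3]
      exact Subgroup.mem_top _
    rw [hK, Subgroup.mem_subgroupOf] at h5
    exact h5

set_option maxRecDepth 100000 in
set_option maxHeartbeats 4000000 in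
lemma A4_sq_prod : ∀ x : Equiv.Perm (Fin 4), Equiv.Perm.sign x = 1 →
    ∃ a ∈ alternatingGroup (Fin 4), ∃ b ∈ alternatingGroup (Fin 4), x = a * a * (b * b) := by
  have key : ∀ x : Equiv.Perm (Fin 4), Equiv.Perm.sign x = 1 →
      ∃ a b : Equiv.Perm (Fin 4), Equiv.Perm.sign a = 1 ∧ Equiv.Perm.sign b = 1 ∧ x = a * a * (b * b) := by decide
  intro x hx
  obtain ⟨a, b, ha, hb, e⟩ := key x hx
  exact ⟨a, Equiv.Perm.mem_alternatingGroup.mpr ha, b, Equiv.Perm.mem_alternatingGroup.mpr hb, e⟩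

/-- A maximal subgroup not containing `L` is not `A₄`. -/
theorem A4_no (h2 : (2 : F) ≠ 0) {M : Subgroup PG} (hM : IsCoatom M) (hML : ¬ (slG : SL(2, F) →* PG).range ≤ M)
    (i : M ≃* alternatingGroup (Fin 4)) : False := by
  obtain ⟨g, hgM, hgL⟩ := exists_not_mem_L h2 hM hML
  apply hgL
  obtain ⟨a, ha, b, hb, e⟩ := A4_sq_prod (i ⟨g, hgM⟩).1 (Equiv.Perm.mem_alternatingGroup.mp (i ⟨g, hgM⟩).2)
  have e' : i ⟨g, hgM⟩ = (⟨a, ha⟩ : alternatingGroup (Fin 4)) * ⟨a, ha⟩ * (⟨b, hb⟩ * ⟨b, hb⟩) := Subtype.ext e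
  have e2 : (⟨g, hgM⟩ : M) = i.symm ⟨a, ha⟩ * i.symm ⟨a, ha⟩ * (i.symm ⟨b, hb⟩ * i.symm ⟨b, hb⟩) := by
    apply i.injective
    rw [e']
    simp
  have e3 : g = ((i.symm ⟨a, ha⟩ : M) : PG) * (i.symm ⟨a, ha⟩ : M) * (((i.symm ⟨b, hb⟩ : M) : PG) * (i.symm ⟨b, hb⟩ : M)) :=
    congrArg Subtype.val e2
  rw [e3]
  exact Subgroup.mul_mem _ ((Subgroup.mul_mem_iff_of_index_two (index_range_slG h2)).mpr Iff.rfl)
    ((Subgroup.mul_mem_iff_of_index_two (index_range_slG h2)).mpr Iff.rfl)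

end Cfsg.Agent.Lib.Classical.Dick
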