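import Mathlib
import Cfsg.Agent.Lib.Classical.Dick.Pgl4
import Cfsg.Agent.Lib.Perm.SharpThree

/-!
Maximal subgroups of `PGL₂(F)` not containing `PSL₂(F)`: the `S₄` and subfield branches, and the list.
-/

set_option autoImplicit false
set_option linter.unusedSimpArgs false
set_option linter.unusedVariables false

namespace Cfsg.Agent.Lib.Classical.Dick

open Matrix
open scoped MatrixGroups
open Cfsg.Agent.Lib.KS2.SL2

variable {F : Type*} [Field F]

local notation "PP" => Matrix.ProjectiveSpecialLinearGroup (Fin 2) F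
local notation "PG" => Matrix.ProjGenLinGroup (Fin 2) F

/-- The inclusion of `M ∩ L` in `M`. -/
noncomputable def jM (M : Subgroup PG) : M.comap (rhoP : PP →* PG) →* M :=
  (rhoP.comp (M.comap (rhoP : PP →* PG)).subtype).codRestrict M (fun y => y.2)

lemma jM_coe (M : Subgroup PG) (y : M.comap (rhoP : PP →* PG)) : ((jM M y : M) : PG) = rhoP (y : PP) := rfl

lemma jM_injective (M : Subgroup PG) : Function.Injective (jM M) := by
  intro a b hab
  have := congrArg Subtype.val hab
  exact Subtype.ext (rhoP_injective this)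

set_option maxRecDepth 100000 in
set_option maxHeartbeats 4000000 in
private lemma S4_sq_one : ∀ x : Equiv.Perm (Fin 4), Equiv.Perm.sign x = 1 → x * x = 1 →
    x = 1 ∨ x = aS4 ∨ x = bS4 ∨ x = aS4 * bS4 := by decide

variable [Fintype F]

/-- The characteristic Klein group of a copy of `A₄`. -/
lemma exists_char_klein (K : Subgroup PP) (i : K ≃* alternatingGroup (Fin 4)) :
    ∃ V : Subgroup PP, IsKleinFour V ∧ V ≤ K ∧ ∀ y ∈ K, y * y = 1 → y ∈ V := by
  obtain ⟨a1, a2, a3, a4, a5, a6⟩ := aA4_facts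
  obtain ⟨V, hV, hVK, hx, hy, hVc⟩ := klein_in_iso K i aA4 bA4 a1 a2 a3 a4 a5 a6
  refine ⟨V, hV, hVK, fun y hy' h => ?_⟩
  have h1 : i ⟨y, hy'⟩ * i ⟨y, hy'⟩ = 1 := by
    rw [← map_mul]
    have : (⟨y, hy'⟩ : K) * ⟨y, hy'⟩ = 1 := Subtype.ext h
    rw [this, map_one]
  have h3 := S4_sq_one (i ⟨y, hy'⟩).1 (Equiv.Perm.mem_alternatingGroup.mp (i ⟨y, hy'⟩).2) (congrArg Subtype.val h1)
  have e : y = ((i.symm (i ⟨y, hy'⟩) : K) : PP) := by rw [i.symm_apply_apply]
  rw [e]
  rcases h3 with h3 | h3 | h3 | h3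
  · have h4 : i ⟨y, hy'⟩ = 1 := Subtype.ext h3
    rw [h4, map_one]
    exact V.one_mem
  · have h4 : i ⟨y, hy'⟩ = aA4 := Subtype.ext h3
    rw [h4]
    exact hx
  · have h4 : i ⟨y, hy'⟩ = bA4 := Subtype.ext h3
    rw [h4]
    exact hy
  · have h4 : i ⟨y, hy'⟩ = aA4 * bA4 := Subtype.ext h3
    rw [h4, map_mul]
    exact V.mul_mem hx hy

/-- Arithmetic for prime characteristic. -/
lemma eq_three_of_card (p : ℕ) (hp : 3 ≤ p) (h : p * (p ^ 2 - 1) = 24) : p = 3 := by
  by_contra hne
  have h1 : 4 ≤ p := by omega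
  have h3 : 16 ≤ p ^ 2 := by nlinarith
  have h4 : 4 * 15 ≤ p * (p ^ 2 - 1) := Nat.mul_le_mul h1 (by omega)
  omega

/-- The `S₄` branch. -/
theorem branch_S4 (p : ℕ) [Fact p.Prime] [CharP F p] (hp2 : p ≠ 2) (h2 : (2 : F) ≠ 0) (h5 : 5 ≤ Fintype.card F)
    {M : Subgroup PG} (hM : IsCoatom M) (hML : ¬ (slG : SL(2, F) →* PG).range ≤ M) (i : M ≃* Equiv.Perm (Fin 4)) :
    Nonempty (M.comap (rhoP : PP →* PG) ≃* alternatingGroup (Fin 4)) ∧
    ((Fintype.card F = p ∧ (p % 8 = 3 ∨ p % 8 = 5)) ∨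
      (p = 3 ∧ ∃ (E : Subfield F) (f : SL(2, F) ≃* SL(2, F)), (∀ x, tr (f x) = tr x) ∧ Nat.card E = 3 ∧
        (M.comap (rhoP : PP →* PG)).map (indP f).toMonoidHom = (embP E).range)) := by
  classical
  have hpp : p.Prime := Fact.out
  have h4 : 4 ≤ Fintype.card F := by omega
  set H := M.comap (rhoP : PP →* PG) with hH
  have hc24 : Nat.card M = 24 := by rw [Nat.card_congr i.toEquiv, card_S4]
  have hcard : Nat.card M = 2 * Nat.card H := two_card_comap h2 hM hML
  have hc12 : Nat.card H = 12 := by omega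
  -- the identification of `H`
  let φ : H →* Equiv.Perm (Fin 4) := i.toMonoidHom.comp (jM M)
  have hφ : Function.Injective φ := fun a b h => jM_injective M (i.injective h)
  have hrange : alternatingGroup (Fin 4) = φ.range := by
    apply Subgroup.eq_of_le_of_card_ge
    · intro x hx
      obtain ⟨a, ha, b, hb, e⟩ := A4_sq_prod x (Equiv.Perm.mem_alternatingGroup.mp hx)
      have e2 : i.symm x = i.symm a * i.symm a * (i.symm b * i.symm b) := by
        rw [e]
        simp only [map_mul]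
      have hL : ((i.symm x : M) : PG) ∈ (slG : SL(2, F) →* PG).range := by
        rw [e2]
        change ((i.symm a : M) : PG) * ((i.symm a : M) : PG) * (((i.symm b : M) : PG) * ((i.symm b : M) : PG)) ∈ _
        exact Subgroup.mul_mem _ ((Subgroup.mul_mem_iff_of_index_two (index_range_slG h2)).mpr Iff.rfl)
          ((Subgroup.mul_mem_iff_of_index_two (index_range_slG h2)).mpr Iff.rfl)
      obtain ⟨y, hy⟩ := (mem_range_slG_iff _).mp hL
      have hyH : y ∈ H := by
        rw [hH, Subgroup.mem_comap, hy]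
        exact (i.symm x).2
      refine ⟨⟨y, hyH⟩, ?_⟩
      have e3 : jM M ⟨y, hyH⟩ = i.symm x := Subtype.ext hy
      change i (jM M ⟨y, hyH⟩) = x
      rw [e3, i.apply_symm_apply]
    · rw [Nat.card_congr (MonoidHom.ofInjective hφ).toEquiv.symm, hc12, card_A4]
  let iH : H ≃* alternatingGroup (Fin 4) := (MonoidHom.ofInjective hφ).trans (MulEquiv.subgroupCongr hrange.symm)
  refine ⟨⟨iH⟩, ?_⟩
  obtain ⟨V, hV, hVH, hVchar⟩ := exists_char_klein H iH
  have hV4 : Nat.card V = 4 := hV.card_four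
  have hsqV : ∀ z ∈ V, z * z = 1 := by
    intro z hz
    have h1 := hV.exponent_two
    have h3 : (⟨z, hz⟩ : V) ^ 2 = 1 := by
      have := Monoid.pow_exponent_eq_one (⟨z, hz⟩ : V)
      rwa [h1] at this
    rw [← sq]
    exact congrArg Subtype.val h3
  have hVinv : InvM M V := by
    intro u hu
    apply Subgroup.eq_of_le_of_card_ge
    · rintro _ ⟨z, hz, rfl⟩
      apply hVchar
      · have h3 := invM_comap M u hu
        rw [← hH] at h3
        rw [← h3]
        exact ⟨z, hVH hz, rfl⟩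
      · change (indP (glConj u)) z * (indP (glConj u)) z = 1
        rw [← map_mul, hsqV z hz, map_one]
    · exact (card_map_indP V (glConj u)).ge
  have hVbot : V ≠ ⊥ := by
    rintro rfl
    rw [Subgroup.card_bot] at hV4
    omega
  have hPP := hPP_eq h2
  have hP60 : 60 ≤ Nat.card PP := by
    have h6 : 25 ≤ Fintype.card F ^ 2 := by nlinarith
    have h7 : 5 * 24 ≤ Fintype.card F * (Fintype.card F ^ 2 - 1) := Nat.mul_le_mul h5 (by omega)
    omega
  have hVtop : V ≠ ⊤ := by
    rintro rfl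
    rw [Subgroup.card_top] at hV4
    omega
  have hNV : H = Subgroup.normalizer ((V : Subgroup PP) : Set PP) := comap_eq_normalizer h4 hM hVinv hVbot hVtop
  -- the congruence
  have hq8 : Fintype.card F % 8 = 3 ∨ Fintype.card F % 8 = 5 := by
    by_contra hcon
    push Not at hcon
    have hsq2 : IsSquare (2 : F) := by
      rw [FiniteField.isSquare_two_iff]
      exact hcon
    obtain ⟨V₁, a, b, t, hV₁, -, -, ha, hb, hab, hne, ha1, -, -, -, -, hτ⟩ := exists_triple h2
    obtain ⟨τ, hτN, hτ2⟩ := hτ hsq2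
    obtain ⟨f₁, -, hf₁⟩ := klein_conj h2 hV hV₁
    have hNe : Subgroup.normalizer (V₁ : Set PP) = (Subgroup.normalizer (V : Set PP)).map (indP f₁).toMonoidHom := by
      rw [← hf₁]
      exact (Subgroup.map_equiv_normalizer_eq V (indP f₁)).symm
    rw [hNe, ← hNV] at hτN
    obtain ⟨y, hy, hyτ⟩ := hτN
    have hyτ' : indP f₁ y = τ := hyτ
    have hy4 : y ^ 4 = 1 := by
      apply (indP f₁).injective
      rw [map_pow, hyτ', map_one]
      have : τ ^ 4 = τ ^ 2 * τ ^ 2 := by rw [← pow_add]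
      rw [this, hτ2, ha]
    have hy2 : y ^ 2 ≠ 1 := by
      intro h
      apply ha1
      rw [← hτ2, ← hyτ', ← map_pow, h, map_one]
    rcases pow_of_A4 H iH y hy with h | h
    · exact hy2 h
    · apply hy2
      have h7 : y = 1 := by
        have : y ^ 4 = y ^ 3 * y := by rw [pow_succ]
        rw [hy4, h, one_mul] at this
        exact this.symm
      rw [h7, one_pow]
  obtain ⟨n, E₁, hn1, hq, hE₁⟩ := exists_prime_subfield (F := F) p
  have hp3 : 3 ≤ p := by
    have := hpp.two_le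
    omega
  by_cases hn : n = 1
  · left
    have hqp : Fintype.card F = p := by rw [← hq, hn, pow_one]
    rw [hqp] at hq8
    exact ⟨hqp, hq8⟩
  right
  obtain ⟨p₀, r₀, h, hE⟩ := exists_prime_pair (F := F) h2
  obtain ⟨f, hf, hVf⟩ := klein_conj h2 hV (stdV_klein h2 p₀ r₀ h)
  have hT : ∀ x : SL(2, F), (pi x : PP) ∈ H → tr x ∈ E₁ :=
    fun x hx => tr_mem_small E₁ x (pow_of_A4 H iH _ hx)
  have hle : H.map (indP f).toMonoidHom ≤ (embP E₁).range := by
    apply rig_le h2 E₁ (hE E₁).1 (hE E₁).2 h H f hf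
    · apply hVH
      apply (mem_map_indP f V _).mp
      rw [hVf]
      exact pi_wel_mem p₀ r₀ h
    · apply hVH
      apply (mem_map_indP f V _).mp
      rw [hVf]
      exact pi_stdJ_mem p₀ r₀ h
    · exact hT
  have hwV : (pi (f.symm (wel F)) : PP) ∈ V := by
    apply (mem_map_indP f V _).mp
    rw [hVf]
    exact pi_wel_mem p₀ r₀ h
  have hjV : (pi (f.symm (stdJ p₀ r₀ h)) : PP) ∈ V := by
    apply (mem_map_indP f V _).mp
    rw [hVf]
    exact pi_stdJ_mem p₀ r₀ h
  have hbasis : ∀ x : SL(2, F), (∀ z : SL(2, F), (pi z : PP) ∈ V → tr (x * z) ∈ E₁) →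
      (pi (f x) : PP) ∈ (embP E₁).range := by
    intro x hx
    have key : ∀ w : SL(2, F), (pi (f.symm w) : PP) ∈ V → tr (f x * w) ∈ E₁ := by
      intro w hw
      have := hx _ hw
      rw [← hf, map_mul, MulEquiv.apply_symm_apply] at this
      exact this
    have h1 : tr (f x) ∈ E₁ := by
      have := key 1 (by rw [map_one, map_one]; exact V.one_mem)
      rwa [mul_one] at this
    have h3 := key _ hwV
    have h6 := key _ hjV
    have h7 := key (wel F * stdJ p₀ r₀ h) (by
      rw [map_mul, map_mul]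
      exact V.mul_mem hwV hjV)
    rw [tr_mul_wel] at h3
    rw [tr_mul_stdJ] at h6
    rw [tr_mul_wel_stdJ] at h7
    obtain ⟨e1, e2, e3, e4⟩ := entries_of_traces h2 E₁ (hE E₁).1 (hE E₁).2 h h1 h3 h6 h7
    apply mem_of_entries (embP E₁).range E₁ (fun e he => uu_mem_range E₁ e he) (fun e he => ll_mem_range E₁ e he)
    intro i j
    fin_cases i <;> fin_cases j
    · exact e1
    · exact e2
    · exact e3
    · exact e4
  have hW : V.map (indP f).toMonoidHom ≤ (embP E₁).range := (Subgroup.map_mono hVH).trans hle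
  have hinv := inv_rigid hVinv E₁ f hf hW hbasis
  set K := (embP E₁).range.map (indP f).symm.toMonoidHom with hK
  have hHK : H ≤ K := by
    intro y hy
    obtain ⟨x, rfl⟩ := pi_surj y
    rw [hK, mem_map_symm_indP]
    exact hle ⟨_, hy, rfl⟩
  have hcK : Nat.card K = Nat.card (Matrix.ProjectiveSpecialLinearGroup (Fin 2) E₁) := by
    rw [hK, ← card_range_embP]
    exact (Nat.card_congr ((indP f).symm.subgroupMap _).toEquiv).symm
  have hcE₁ := two_card_PSL h2 E₁
  rw [hE₁] at hcE₁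
  have hKtop : K ≠ ⊤ := by
    apply ne_top_of_card_le K p n hp3 (by omega) hq
    rw [hcK]
    omega
  have hKbot : K ≠ ⊥ := by
    intro h6
    apply hVbot
    rw [eq_bot_iff, ← h6]
    exact hVH.trans hHK
  have hNK := comap_eq_normalizer h4 hM hinv hKbot hKtop
  have hKH : K ≤ H := by
    rw [hH, hNK]
    exact Subgroup.le_normalizer
  have heq : H = K := le_antisymm hHK hKH
  have hp33 : p = 3 := by
    apply eq_three_of_card p hp3
    rw [← hcE₁, ← hcK, ← heq, hc12]
  refine ⟨hp33, E₁, f, hf, by rw [hE₁, hp33], ?_⟩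
  apply Subgroup.eq_of_le_of_card_ge hle
  rw [card_map_indP, card_range_embP, ← hcK, heq]

/-- `PGL₂` of an odd field is not simple. -/
lemma not_simple_PGL (K : Type*) [Field K] [Fintype K] (h2 : (2 : K) ≠ 0) (h4 : 4 ≤ Fintype.card K)
    (h : IsSimpleGroup (Matrix.ProjGenLinGroup (Fin 2) K)) : False := by
  classical
  have hidx := index_range_slG h2
  haveI : (slG : SL(2, K) →* Matrix.ProjGenLinGroup (Fin 2) K).range.Normal := Subgroup.normal_of_index_eq_two hidx
  rcases IsSimpleGroup.eq_bot_or_eq_top_of_normal _ (inferInstance : (slG : SL(2, K) →* Matrix.ProjGenLinGroup (Fin 2) K).range.Normal) with e | e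
  · have h3 := Subgroup.card_mul_index (slG : SL(2, K) →* Matrix.ProjGenLinGroup (Fin 2) K).range
    rw [hidx, e, Subgroup.card_bot, card_PGL2] at h3
    have h5 : 16 ≤ Fintype.card K ^ 2 := by nlinarith
    have h6 : 4 * 15 ≤ Fintype.card K * (Fintype.card K ^ 2 - 1) := Nat.mul_le_mul h4 (by omega)
    omega
  · rw [e, Subgroup.index_top] at hidx
    omega

/-- `s ↦ s (s² - 1)` is injective. -/
lemma eq_of_card_eq (s t : ℕ) (hs : 2 ≤ s) (ht : 2 ≤ t) (h : s * (s ^ 2 - 1) = t * (t ^ 2 - 1)) : s = t := by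
  have key : ∀ a b : ℕ, 2 ≤ a → a < b → a * (a ^ 2 - 1) < b * (b ^ 2 - 1) := by
    intro a b ha hab
    have h1 : a ^ 2 < b ^ 2 := Nat.pow_lt_pow_left hab (by norm_num)
    have h3 : 4 ≤ a ^ 2 := by nlinarith
    have h4 : a ^ 2 - 1 < b ^ 2 - 1 := by omega
    exact Nat.mul_lt_mul'' hab h4
  rcases Nat.lt_trichotomy s t with h1 | h1 | h1
  · have := key s t hs h1
    omega
  · exact h1
  · have := key t s ht h1
    omega

omit [Fintype F] in
lemma two_ne_zero_of_odd_card (K : Type*) [Field K] [Fintype K] (h : Odd (Fintype.card K)) : (2 : K) ≠ 0 := by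
  intro h20
  have hch : ringChar K = 2 := by
    haveI := CharTwo.of_one_ne_zero_of_two_eq_zero (R := K) one_ne_zero h20
    exact ringChar.eq K 2
  have hev := FiniteField.even_card_of_char_two hch
  have := Nat.odd_iff.mp h
  omega

/-- The subfield branch. -/
theorem branch_PGL (p : ℕ) [Fact p.Prime] [CharP F p] (hp2 : p ≠ 2) (hodd : Odd (Fintype.card F)) (h2 : (2 : F) ≠ 0)
    (h4 : 4 ≤ Fintype.card F) {M : Subgroup PG} (hM : IsCoatom M) (hML : ¬ (slG : SL(2, F) →* PG).range ≤ M)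
    (E : Type*) [Field E] [Fintype E] (m : ℕ) (h4E : 4 ≤ Fintype.card E) (hm : Fintype.card E ^ m = Fintype.card F ^ 2)
    (i : M ≃* Matrix.ProjGenLinGroup (Fin 2) E) :
    ∃ (E₁ : Subfield F) (f : SL(2, F) ≃* SL(2, F)), (∀ x, tr (f x) = tr x) ∧ Nat.card E₁ = Fintype.card E ∧
      (M.comap (rhoP : PP →* PG)).map (indP f).toMonoidHom = (embP E₁).range := by
  classical
  have hpp : p.Prime := Fact.out
  set H := M.comap (rhoP : PP →* PG) with hH
  set s := Fintype.card E with hs
  have hm0 : m ≠ 0 := by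
    rintro rfl
    rw [pow_zero] at hm
    have : 2 ≤ Fintype.card F := Fintype.one_lt_card
    nlinarith
  have hsodd : Odd s := by
    have h3 : Odd (s ^ m) := by
      rw [hm]
      exact hodd.pow
    exact (Nat.odd_pow_iff hm0).mp h3
  have hs5 : 5 ≤ s := by
    obtain ⟨t, ht⟩ := hsodd
    omega
  have h2E : (2 : E) ≠ 0 := two_ne_zero_of_odd_card E hsodd
  have hcard : Nat.card M = 2 * Nat.card H := two_card_comap h2 hM hML
  have hcM : Nat.card M = s * (s ^ 2 - 1) := by rw [Nat.card_congr i.toEquiv, card_PGL2]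
  have hcPS : 2 * Nat.card (Matrix.ProjectiveSpecialLinearGroup (Fin 2) E) = s * (s ^ 2 - 1) := hPP_eq (F := E) h2E
  have hcH : 2 * Nat.card H = s * (s ^ 2 - 1) := by omega
  have hcHPS : Nat.card H = Nat.card (Matrix.ProjectiveSpecialLinearGroup (Fin 2) E) := by omega
  -- `H` is a copy of `PSL₂(E)`
  let φ : H →* Matrix.ProjGenLinGroup (Fin 2) E := i.toMonoidHom.comp (jM M)
  have hφ : Function.Injective φ := fun a b h => jM_injective M (i.injective h)
  have hφc : Nat.card φ.range = Nat.card H := (Nat.card_congr (MonoidHom.ofInjective hφ).toEquiv).symm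
  have hφi : φ.range.index = 2 := by
    have h3 := Subgroup.card_mul_index φ.range
    rw [hφc, card_PGL2, ← hs, ← hcH] at h3
    have hpos : 0 < Nat.card H := Nat.card_pos
    apply Nat.eq_of_mul_eq_mul_left hpos
    rw [h3]
    ring
  haveI hnφ : φ.range.Normal := Subgroup.normal_of_index_eq_two hφi
  haveI hsimple : IsSimpleGroup (Matrix.ProjectiveSpecialLinearGroup (Fin 2) E) := isSimple_PP (F := E) h4E
  have hrE : (rhoP : Matrix.ProjectiveSpecialLinearGroup (Fin 2) E →* Matrix.ProjGenLinGroup (Fin 2) E).range = φ.range := by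
    apply Subgroup.eq_of_le_of_card_ge
    · have hC : (φ.range.comap (rhoP : Matrix.ProjectiveSpecialLinearGroup (Fin 2) E →* Matrix.ProjGenLinGroup (Fin 2) E)).Normal :=
        Subgroup.Normal.comap hnφ _
      rcases IsSimpleGroup.eq_bot_or_eq_top_of_normal _ hC with e | e
      · exfalso
        apply not_comm_PP (F := E)
        have hex : ∀ y : Matrix.ProjectiveSpecialLinearGroup (Fin 2) E, y * y = 1 := by
          intro y
          have h3 : y * y ∈ φ.range.comap (rhoP : Matrix.ProjectiveSpecialLinearGroup (Fin 2) E →* Matrix.ProjGenLinGroup (Fin 2) E) := by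
            rw [Subgroup.mem_comap, map_mul]
            exact (Subgroup.mul_mem_iff_of_index_two hφi).mpr Iff.rfl
          rw [e, Subgroup.mem_bot] at h3
          exact h3
        have hinv : ∀ y : Matrix.ProjectiveSpecialLinearGroup (Fin 2) E, y⁻¹ = y := fun y => inv_eq_of_mul_eq_one_left (hex y)
        intro a b
        calc a * b = (a * b)⁻¹ := (hinv _).symm
          _ = b⁻¹ * a⁻¹ := mul_inv_rev _ _
          _ = b * a := by rw [hinv, hinv]
      · intro g hg
        obtain ⟨y, rfl⟩ := hg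
        have : y ∈ φ.range.comap (rhoP : Matrix.ProjectiveSpecialLinearGroup (Fin 2) E →* Matrix.ProjGenLinGroup (Fin 2) E) := by
          rw [e]
          exact Subgroup.mem_top _
        exact this
    · rw [hφc, hcHPS]
      exact le_of_eq (Nat.card_congr (MonoidHom.ofInjective rhoP_injective).toEquiv)
  let iH : H ≃* Matrix.ProjectiveSpecialLinearGroup (Fin 2) E :=
    (MonoidHom.ofInjective hφ).trans ((MulEquiv.subgroupCongr hrE.symm).trans (MonoidHom.ofInjective rhoP_injective).symm)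
  haveI hHs : IsSimpleGroup H := iH.isSimpleGroup
  -- the structure of `H`
  obtain ⟨H₀, ⟨i₀⟩⟩ := exists_A4_odd (F := E) h2E
  have hD : A4Data H := by
    have h3 := a4Data_A4.of_injective i₀.symm.toMonoidHom i₀.symm.injective
    have h5 := h3.of_injective H₀.subtype H₀.subtype_injective
    exact h5.of_injective iH.symm.toMonoidHom iH.symm.injective
  have hbig : 120 ≤ s * (s ^ 2 - 1) := by
    have h6 : 25 ≤ s ^ 2 := by nlinarith
    calc 120 = 5 * 24 := by norm_num
      _ ≤ s * (s ^ 2 - 1) := Nat.mul_le_mul hs5 (by omega)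
  have hgood : ∃ s₁, 4 ≤ s₁ ∧ Good H s₁ := by
    rcases dickson_main rfl p H with ⟨k, hk, h⟩ | ⟨Q, hQ⟩ | ⟨⟨h⟩⟩ | ⟨⟨h⟩⟩ | ⟨⟨h⟩⟩ | ⟨S, hS4, -, hS⟩
    · exfalso
      obtain ⟨⟨x, y, h1⟩, -⟩ := hD
      apply h1
      rcases h with ⟨hcyc, -⟩ | ⟨⟨i'⟩⟩
      · letI := IsCyclic.commGroup (α := H)
        exact mul_comm _ _
      · exact dih_squares k i' x y
    · exact (excl_borel_A4 p hp2 H Q hQ hD).elim
    · exfalso
      have := Nat.card_congr h.toEquiv
      rw [card_A4] at this
      omega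
    · exfalso
      have := Nat.card_congr h.toEquiv
      rw [card_S4] at this
      omega
    · have hc60 := Nat.card_congr h.toEquiv
      rw [card_A5] at hc60
      have hs55 : s = 5 := eq_five_of_card s (by omega)
      have hp5 : p = 5 := by
        have h3 : p ∣ s ^ m := by
          rw [hm]
          obtain ⟨n, -, hn⟩ := FiniteField.card F p
          rw [hn, ← pow_mul]
          exact dvd_pow_self p (by have := n.pos; positivity)
        have h5 := hpp.dvd_of_dvd_pow h3
        rw [hs55] at h5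
        exact (Nat.prime_dvd_prime_iff_eq hpp (by norm_num)).mp h5
      subst hp5
      obtain ⟨S⟩ : Nonempty (Sylow 5 H) := inferInstance
      have hS5 : Nat.card (S : Subgroup H) = 5 := by
        rw [Sylow.card_eq_multiplicity, hc60]
        have : (60 : ℕ) = 5 ^ 1 * 12 := by norm_num
        rw [this, Nat.factorization_mul (by norm_num) (by norm_num), Nat.Prime.factorization_pow (by norm_num)]
        have h3 : (12 : ℕ).factorization 5 = 0 := Nat.factorization_eq_zero_of_not_dvd (by norm_num)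
        simp [h3]
      exact ⟨_, by omega, good_of_A5 5 H h S (by omega)⟩
    · exact ⟨_, hS4, hS⟩
  obtain ⟨s₁, hs₁, E₁, f, hE₁, hf, hu, hl, ht2, hiso⟩ := hgood
  haveI : Fintype E₁ := Fintype.ofFinite _
  have hsodd₁ : (2 : E₁) ≠ 0 := by
    intro h3
    apply h2
    have := congrArg (Subfield.subtype E₁) h3
    rwa [map_ofNat, map_zero] at this
  rcases hiso with ⟨⟨j⟩⟩ | ⟨⟨j⟩⟩
  · have hcE₁ := two_card_PSL h2 E₁
    have hc1 : Nat.card H = Nat.card (Matrix.ProjectiveSpecialLinearGroup (Fin 2) E₁) := Nat.card_congr j.toEquiv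
    have hss : Nat.card E₁ = s := by
      apply eq_of_card_eq _ _ (by omega) (by omega)
      omega
    refine ⟨E₁, f, hf, hss, ?_⟩
    exact (good_iso_psl H E₁ f hu hl (le_of_eq hc1)).1.symm
  · exfalso
    apply not_simple_PGL E₁ hsodd₁ (by rw [← Nat.card_eq_fintype_card]; omega)
    exact j.symm.isSimpleGroup

/-- `PGL₂(3)` is `S₄`. -/
lemma pgl3_S4 : Nonempty (Matrix.ProjGenLinGroup (Fin 2) (ZMod 3) ≃* Equiv.Perm (Fin 4)) := by
  classical
  haveI : Fact (Nat.Prime 3) := ⟨by norm_num⟩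
  have hc : Nat.card (OnePoint (ZMod 3)) = 4 := by
    have : Nat.card (Option (ZMod 3)) = 4 := by
      rw [Finite.card_option, Nat.card_zmod]
    exact this
  have hP : Nat.card (Equiv.Perm (OnePoint (ZMod 3))) = 24 := by
    rw [Nat.card_perm, hc]
    decide
  have hG : Nat.card (Matrix.ProjGenLinGroup (Fin 2) (ZMod 3)) = 24 := by
    rw [card_PGL2, ZMod.card]
    norm_num
  let iR := Cfsg.Agent.Lib.Perm.ST.pglEquivRange (F := ZMod 3)
  have htop : (Cfsg.Agent.Lib.Perm.ST.mobGL (F := ZMod 3)).range = ⊤ := by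
    apply Subgroup.eq_top_of_card_eq
    rw [hP, ← Nat.card_congr iR.toEquiv, hG]
  let e : OnePoint (ZMod 3) ≃ Fin 4 := Finite.equivFinOfCardEq hc
  exact ⟨iR.trans ((MulEquiv.subgroupCongr htop).trans (Subgroup.topEquiv.trans (Equiv.permCongrHom e)))⟩

/-- The list of maximal subgroups of `PGL₂(F)` not containing `PSL₂(F)`, `F` of odd order. -/
theorem pgl2_struct (p : ℕ) [Fact p.Prime] [CharP F p] (hodd : Odd (Fintype.card F)) (h3 : 3 < Fintype.card F)
    {M : Subgroup PG} (hM : IsCoatom M) (hML : ¬ (slG : SL(2, F) →* PG).range ≤ M) :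
    (∃ y : PP, y ≠ 1 ∧ (tr (lf y)) ^ 2 = 4 ∧
      M.comap (rhoP : PP →* PG) = Subgroup.normalizer ((CP y : Subgroup PP) : Set PP)) ∨
    (∃ x : SL(2, F), (tr x) ^ 2 ≠ 4 ∧
      M.comap (rhoP : PP →* PG) = Subgroup.normalizer ((CP (pi x) : Subgroup PP) : Set PP) ∧
      3 ≤ Nat.card (CP (pi x) : Subgroup PP) ∧
      Nonempty (M ≃* DihedralGroup (2 * Nat.card (CP (pi x) : Subgroup PP)))) ∨
    (Fintype.card F = p ∧ (p % 8 = 3 ∨ p % 8 = 5) ∧ Nonempty (M.comap (rhoP : PP →* PG) ≃* alternatingGroup (Fin 4)) ∧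
      Nonempty (M ≃* Equiv.Perm (Fin 4))) ∨
    (∃ (E₁ : Subfield F) (f : SL(2, F) ≃* SL(2, F)) (r : ℕ), (∀ x, tr (f x) = tr x) ∧ r.Prime ∧ Odd r ∧
      Nat.card E₁ ^ r = Fintype.card F ∧ 3 ≤ Nat.card E₁ ∧
      (M.comap (rhoP : PP →* PG)).map (indP f).toMonoidHom = (embP E₁).range ∧
      ∃ (F₀ : Type) (_ : Field F₀) (_ : Fintype F₀), Fintype.card F₀ = Nat.card E₁ ∧
        Nonempty (M ≃* Matrix.ProjGenLinGroup (Fin 2) F₀)) := by
  classical
  have hpp : p.Prime := Fact.out
  have hp2 : p ≠ 2 := by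
    rintro rfl
    obtain ⟨n, -, hn⟩ := FiniteField.card F 2
    rw [hn] at hodd
    rw [Nat.odd_pow_iff n.pos.ne'] at hodd
    exact absurd hodd (by decide)
  have h2 : (2 : F) ≠ 0 := two_ne_zero_of_char p hp2
  have h4 : 4 ≤ Fintype.card F := h3
  have h5 : 5 ≤ Fintype.card F := by
    obtain ⟨t, ht⟩ := hodd
    omega
  rcases pgl_types p M with ⟨k, h⟩ | ⟨S, hS, hn, h1⟩ | ⟨⟨i⟩⟩ | ⟨⟨i⟩⟩ | ⟨⟨i⟩⟩ | ⟨E, _, _, m, hE4, hm, ⟨⟨i⟩⟩ | ⟨⟨i⟩⟩⟩
  · rcases branch_cyc_dih hodd h2 h4 hM hML k h with h' | h'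
    · exact Or.inl h'
    · exact Or.inr (Or.inl h')
  · exact Or.inl (branch_normal_p p hp2 h2 h4 hM hS hn h1)
  · exact (A4_no h2 hM hML i).elim
  · obtain ⟨hiH, h' | ⟨hp3, E, f, hf, hE3, he⟩⟩ := branch_S4 p hp2 h2 h5 hM hML i
    · exact Or.inr (Or.inr (Or.inl ⟨h'.1, h'.2, hiH, ⟨i⟩⟩))
    · right; right; right
      obtain ⟨r, hr, hro, hc⟩ := finish_r h2 h4 hM hML E f hf (by omega) he
      haveI : Fact (Nat.Prime 3) := ⟨by norm_num⟩
      obtain ⟨j⟩ := pgl3_S4
      exact ⟨E, f, r, hf, hr, hro, hc, by omega, he, ZMod 3, inferInstance, inferInstance, by rw [ZMod.card, hE3], ⟨i.trans j.symm⟩⟩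
  · haveI : IsSimpleGroup (alternatingGroup (Fin 5)) := alternatingGroup.isSimpleGroup_five
    exact (simple_no h2 hM hML i (by rw [card_A5]; norm_num)).elim
  · haveI := isSimple_PP (F := E) hE4
    refine (simple_no h2 hM hML i ?_).elim
    have hodd' : Odd (Fintype.card E) := by
      have hm0 : m ≠ 0 := by
        rintro rfl
        rw [pow_zero] at hm
        nlinarith
      have h6 : Odd (Fintype.card E ^ m) := by
        rw [hm]
        exact hodd.pow
      exact (Nat.odd_pow_iff hm0).mp h6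
    have h6 := hPP_eq (F := E) (two_ne_zero_of_odd_card E hodd')
    have h7 : 16 ≤ Fintype.card E ^ 2 := by nlinarith
    have h8 : 4 * 15 ≤ Fintype.card E * (Fintype.card E ^ 2 - 1) := Nat.mul_le_mul hE4 (by omega)
    omega
  · right; right; right
    obtain ⟨E₁, f, hf, hc, he⟩ := branch_PGL p hp2 hodd h2 h4 hM hML E m hE4 hm i
    obtain ⟨r, hr, hro, hc'⟩ := finish_r h2 h4 hM hML E₁ f hf (by omega) he
    exact ⟨E₁, f, r, hf, hr, hro, hc', by omega, he, E, inferInstance, inferInstance, hc.symm, ⟨i⟩⟩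

end Cfsg.Agent.Lib.Classical.Dick
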