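import Mathlib
import Cfsg.Agent.Lib.Classical.Dick.Pgl5

/-!
`M ∩ L` is a maximal subgroup of `L` for a maximal subgroup `M` of `PGL₂(F)`, away from the exceptions.
-/

set_option autoImplicit false
set_option linter.unusedSimpArgs false
set_option linter.unusedVariables false

namespace Cfsg.Agent.Lib.Classical.Dick

open Matrix
open scoped MatrixGroups
open Cfsg.Agent.Lib.KS2.SL2

variable {F : Type*} [Field F]

local notation "PP" => Matrix.ProjectiveSpecialLinearGroup (Fin 2) F
local notation "PG" => Matrix.ProjGenLinGroup (Fin 2) F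

/-- Coatoms and isomorphisms. -/
lemma isCoatom_map_equiv {G G' : Type*} [Group G] [Group G'] (φ : G ≃* G') {M : Subgroup G} (h : IsCoatom M) :
    IsCoatom (M.map φ.toMonoidHom) :=
  (OrderIso.isCoatom_iff (MulEquiv.mapSubgroup φ) M).mpr h

lemma isCoatom_of_map {G : Type*} [Group G] (φ : G ≃* G) {M : Subgroup G} (h : IsCoatom (M.map φ.toMonoidHom)) :
    IsCoatom M :=
  (OrderIso.isCoatom_iff (MulEquiv.mapSubgroup φ) M).mp h

/-- An element outside the Borel subgroup generates everything with it. -/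
lemma exists_antidiag (z : SL(2, F)) (hz : (z : Matrix (Fin 2) (Fin 2) F) 1 0 ≠ 0) (c : F) :
    uu (-(z : Matrix (Fin 2) (Fin 2) F) 0 0 / (z : Matrix (Fin 2) (Fin 2) F) 1 0) * z *
        uu (-(z : Matrix (Fin 2) (Fin 2) F) 1 1 / (z : Matrix (Fin 2) (Fin 2) F) 1 0) *
      uu (-(c / ((z : Matrix (Fin 2) (Fin 2) F) 1 0) ^ 2)) *
      (uu (-(z : Matrix (Fin 2) (Fin 2) F) 0 0 / (z : Matrix (Fin 2) (Fin 2) F) 1 0) * z *
        uu (-(z : Matrix (Fin 2) (Fin 2) F) 1 1 / (z : Matrix (Fin 2) (Fin 2) F) 1 0))⁻¹ = ll c := by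
  have hd := det_rel z
  set a := (z : Matrix (Fin 2) (Fin 2) F) 0 0 with ha
  set b := (z : Matrix (Fin 2) (Fin 2) F) 0 1 with hb
  set g := (z : Matrix (Fin 2) (Fin 2) F) 1 0 with hg
  set d := (z : Matrix (Fin 2) (Fin 2) F) 1 1 with hd'
  have hb' : b = (a * d - 1) / g := by
    field_simp
    linear_combination -hd
  rw [mul_inv_eq_iff_eq_mul]
  apply ext4 <;> simp only [mul00, mul01, mul10, mul11, uu00, uu01, uu10, uu11, ll00, ll01, ll10, ll11, ← ha, ← hb, ← hg, ← hd'] <;>
    first
      | (rw [hb']; field_simp; ring)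
      | (field_simp; ring)

lemma pi_uu_mem_BP (e : F) : (pi (uu e) : PP) ∈ BP F := by
  rw [mem_BP_pi]
  rfl

variable [Fintype F]

/-- The Borel subgroup is maximal. -/
theorem BP_coatom : IsCoatom (BP F) := by
  classical
  constructor
  · intro h
    have := index_BP (F := F)
    rw [h, Subgroup.index_top] at this
    have : 1 < Fintype.card F := Fintype.one_lt_card
    omega
  · intro K hK
    obtain ⟨y, hyK, hy⟩ := SetLike.exists_of_lt hK
    rw [mem_BP] at hy
    have hle := hK.le
    have hu : ∀ e : F, (pi (uu e) : PP) ∈ K := fun e => hle (pi_uu_mem_BP e)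
    have hy' : (pi (lf y) : PP) ∈ K := by rwa [pi_lf]
    have hl : ∀ c : F, (pi (ll c) : PP) ∈ K := by
      intro c
      rw [← exists_antidiag (lf y) hy c, map_mul, map_mul, map_inv, map_mul, map_mul]
      apply K.mul_mem (K.mul_mem (K.mul_mem (K.mul_mem (hu _) hy') (hu _)) (hu _))
      exact K.inv_mem (K.mul_mem (K.mul_mem (hu _) hy') (hu _))
    rw [eq_top_iff]
    intro w _
    obtain ⟨x, rfl⟩ := pi_surj w
    exact mem_of_entries K ⊤ (fun e _ => hu e) (fun e _ => hl e) x (fun i j => Subfield.mem_top _)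

/-- The normaliser of a unipotent member is maximal. -/
theorem unip_coatom (y : PP) (hy : y ≠ 1) (hτ : (tr (lf y)) ^ 2 = 4) :
    IsCoatom (Subgroup.normalizer ((CP y : Subgroup PP) : Set PP)) := by
  have hx : ¬ IsScalar (lf y) := not_scalar_of_ne_one (by rwa [pi_lf])
  obtain ⟨ε, hε, ht⟩ := exists_eps _ hτ
  obtain ⟨b, hb, P, hP⟩ := exists_conj_ux _ hx ε hε ht
  let f := MulAut.conj P
  have hfx : f (lf y) = ux ε b hε := hP
  have hpi : (pi (f (lf y)) : PP) = pi (uu b) := by
    rw [hfx, pi_ux]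
  have h3 : (CP (pi (uu b)) : Subgroup PP) = CP (pi (uu 1)) :=
    CP_eq_of_mem _ _ (pi_uu_ne 1 one_ne_zero) (pi_uu_ne b hb) (pi_uu_comm b 1)
  apply isCoatom_of_map (indP f)
  rw [Subgroup.map_equiv_normalizer_eq]
  have h5 := map_CP f (lf y)
  rw [pi_lf] at h5
  rw [h5, hpi, h3, normalizer_CP_uu_eq]
  exact BP_coatom

/-- The normaliser of a torus is maximal, away from the exceptions. -/
theorem torus_coatom (p : ℕ) [Fact p.Prime] [CharP F p] (hodd : Odd (Fintype.card F)) (h5 : 5 ≤ Fintype.card F)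
    (h7 : Fintype.card F ≠ 7) (h9 : Fintype.card F ≠ 9) (h11 : Fintype.card F ≠ 11) (x₀ : SL(2, F))
    (hτ₀ : (tr x₀) ^ 2 ≠ 4) (ha3₀ : 3 ≤ Nat.card (CP (pi x₀) : Subgroup PP)) :
    IsCoatom (Subgroup.normalizer ((CP (pi x₀) : Subgroup PP) : Set PP)) := by
  classical
  obtain ⟨x, hτ, hCP, hgen⟩ := exists_gen x₀ hτ₀ (by omega)
  rw [← hCP] at ha3₀ ⊢
  have h2 := two_ne_zero_of_odd_card F hodd
  have hPP := hPP_eq h2
  have hqodd : Fintype.card F % 2 = 1 := Nat.odd_iff.mp hodd
  have hgcd : Nat.gcd 2 (Fintype.card F - 1) = 2 := by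
    apply Nat.gcd_eq_left
    omega
  have hcard : 2 * Nat.card (CP (pi x) : Subgroup PP) = Fintype.card F - 1 ∨
      2 * Nat.card (CP (pi x) : Subgroup PP) = Fintype.card F + 1 := by
    rcases (CP_ss x hτ).2 with h | h
    · left
      rw [hgcd] at h
      have h3 : Nat.card (CP (pi x) : Subgroup PP) = (Fintype.card F - 1) / 2 := h
      omega
    · right
      rw [hgcd] at h
      have h3 : Nat.card (CP (pi x) : Subgroup PP) = (Fintype.card F + 1) / 2 := h
      omega
  have hpi1 : (pi x : PP) ≠ 1 := fun h => not_scalar_of_tr x hτ ((pi_eq_one_iff x).mp h)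
  have hq5 : Fintype.card F = 5 → Nat.card PP = 60 := by
    intro h
    have : 2 * Nat.card PP = 120 := by rw [hPP, h]; norm_num
    omega
  apply normalizer_coatom rfl p x hτ hgen ha3₀ (normalizer_CP_ne_top (by omega) _ hpi1)
  · rw [hgcd]
    omega
  · intro h1 h3
    have h6 : Fintype.card F = 5 := by omega
    rw [hq5 h6] at h1
    omega
  · intro h1 h0 h3
    have h6 : Fintype.card F = 5 := by omega
    exact h0 (hq5 h6).symm
  · intro s m hs hm hne h
    have hm2 : 2 ≤ m := by
      by_contra hlt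
      have : m = 0 ∨ m = 1 := by omega
      rcases this with rfl | rfl
      · simp at hm
        omega
      · simp at hm
        exact hne hm
    have hsq : s ^ 2 ≤ Fintype.card F := by
      rw [← hm]
      exact Nat.pow_le_pow_right (by omega) hm2
    have h3 : Fintype.card F ≤ 2 * s + 3 := by omega
    nlinarith

/-- A copy of `A₄` is maximal, for suitable primes. -/
theorem A4_coatom (p : ℕ) [Fact p.Prime] [CharP F p] (hF : Fintype.card F = p) (h5 : 5 ≤ p) (h8 : p % 8 = 3 ∨ p % 8 = 5)
    (h10 : p % 10 ≠ 1 ∧ p % 10 ≠ 9) (H : Subgroup PP) (i : H ≃* alternatingGroup (Fin 4)) : IsCoatom H := by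
  classical
  have hpp : p.Prime := Fact.out
  have hp2 : p ≠ 2 := by omega
  have h2 : (2 : F) ≠ 0 := two_ne_zero_of_char p hp2
  have hch : ringChar F ≠ 2 := by
    intro h
    apply hp2
    have := ringChar.eq F p
    omega
  have hcH : Nat.card H = 12 := by rw [Nat.card_congr i.toEquiv, card_A4]
  have hPP : 2 * Nat.card PP = p * (p ^ 2 - 1) := by
    have h3 := card_PP_eq (F := F)
    rwa [card_roots1_odd hch, hF] at h3
  have hsq1 : 1 ≤ p ^ 2 := Nat.one_le_pow _ _ (by omega)
  apply coatom_of_small p hp2 H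
  · intro htop
    have h1 : Nat.card H = Nat.card PP := by
      rw [htop]
      exact Nat.card_congr Subgroup.topEquiv.toEquiv
    rw [← h1, hcH] at hPP
    have h4 : 25 ≤ p ^ 2 := by nlinarith
    have h5' : 24 ≤ p ^ 2 - 1 := by omega
    have h6 : 5 * 24 ≤ p * (p ^ 2 - 1) := Nat.mul_le_mul h5 h5'
    omega
  · exact a4Data_A4.of_injective i.symm.toMonoidHom i.symm.injective
  · intro M hM hMt hi
    have h1 : 12 ∣ Nat.card M := by
      rw [← hcH]
      exact Subgroup.card_dvd_of_le hM
    have h3 : Nat.card M ∣ Nat.card PP := Subgroup.card_subgroup_dvd_card M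
    rcases hi with ⟨⟨j⟩⟩ | ⟨⟨j⟩⟩ | ⟨⟨j⟩⟩
    · symm
      apply Subgroup.eq_of_le_of_card_ge hM
      rw [hcH, Nat.card_congr j.toEquiv, card_A4]
    · exfalso
      have h4 := sq_mod_of_S4 M j
      rw [hF] at h4
      have h6 : p % 16 = 3 ∨ p % 16 = 5 ∨ p % 16 = 11 ∨ p % 16 = 13 := by omega
      have h7 : p ^ 2 % 16 = (p % 16) ^ 2 % 16 := Nat.pow_mod _ _ _
      rw [h4] at h7
      rcases h6 with h6 | h6 | h6 | h6 <;> rw [h6] at h7 <;> norm_num at h7
    · exfalso
      apply hMt
      apply Subgroup.eq_top_of_card_eq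
      rw [Nat.card_congr j.toEquiv, card_A5] at h3 ⊢
      have h6 : 5 ∣ p * (p ^ 2 - 1) := by
        rw [← hPP]
        obtain ⟨c, hc'⟩ := h3
        rw [hc']
        exact ⟨24 * c, by ring⟩
      have h7 : p = 5 := by
        rcases (by norm_num : Nat.Prime 5).dvd_mul.mp h6 with h | h
        · exact ((Nat.prime_dvd_prime_iff_eq (by norm_num) hpp).mp h).symm
        · exfalso
          have h8' : p % 5 = 0 ∨ p % 5 = 1 ∨ p % 5 = 2 ∨ p % 5 = 3 ∨ p % 5 = 4 := by omega
          have h9 : p ^ 2 % 5 = (p % 5) ^ 2 % 5 := Nat.pow_mod _ _ _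
          have hodd : p % 2 = 1 := by
            rcases hpp.eq_two_or_odd with h | h
            · omega
            · exact h
          rcases h8' with h8' | h8' | h8' | h8' | h8' <;> rw [h8'] at h9 <;> norm_num at h9 <;> omega
      subst h7
      have e : (5 : ℕ) * (5 ^ 2 - 1) = 120 := by norm_num
      rw [e] at hPP
      omega
  · intro M E hM hE4 hEq hi
    exfalso
    haveI : Fintype E := Fintype.ofFinite _
    have hpow : Nat.card E ^ Module.finrank E F = Fintype.card F := by
      rw [Nat.card_eq_fintype_card]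
      exact (Module.card_eq_pow_finrank (K := E) (V := F)).symm
    have h1 : Nat.card E ∣ Fintype.card F := by
      rw [← hpow]
      exact dvd_pow_self _ Module.finrank_pos.ne'
    rw [hF] at h1 hEq
    rcases (Nat.dvd_prime hpp).mp h1 with h4 | h4
    · omega
    · exact hEq h4

private lemma pow9_mod16' (j : ℕ) : 9 ^ (2 * j + 1) % 16 = 9 := by
  induction j with
  | zero => norm_num
  | succ j ih =>
    have e : 9 ^ (2 * (j + 1) + 1) = 81 * 9 ^ (2 * j + 1) := by ring
    rw [e]
    omega

private lemma pow9_mod5' (j : ℕ) : 9 ^ (2 * j + 1) % 5 = 4 := by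
  induction j with
  | zero => norm_num
  | succ j ih =>
    have e : 9 ^ (2 * (j + 1) + 1) = 81 * 9 ^ (2 * j + 1) := by ring
    rw [e]
    omega

/-- A subfield subgroup of odd prime degree is maximal. -/
theorem subfield_coatom (p : ℕ) [Fact p.Prime] [CharP F p] (E : Subfield F) (r : ℕ) (hr : r.Prime) (hrodd : Odd r)
    (hE' : Nat.card E ^ r = Fintype.card F) (hFodd : Odd (Fintype.card F)) (hq3 : 3 ≤ Nat.card E) :
    IsCoatom (embP E).range := by
  classical
  obtain ⟨q, hE⟩ : ∃ q, Nat.card E = q := ⟨_, rfl⟩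
  rw [hE] at hE' hq3
  have hF : Fintype.card F = q ^ r := hE'.symm
  have hq : Odd q := by
    rw [hF] at hFodd
    exact (Nat.odd_pow_iff hr.ne_zero).mp hFodd
  have hch : ringChar F ≠ 2 := by
    intro h2
    exact (Nat.not_even_iff_odd.mpr hFodd) (Nat.even_iff.mpr (FiniteField.even_card_of_char_two h2))
  have hsub : ∀ E' : Subfield F, ringChar E' ≠ 2 := by
    intro E' h2
    haveI : Fintype E' := Fintype.ofFinite _
    have h3 := FiniteField.even_card_of_char_two h2
    have h4 : Fintype.card E' ∣ Fintype.card F := by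
      have := Module.card_eq_pow_finrank (K := E') (V := F)
      rw [this]
      exact dvd_pow_self _ (Module.finrank_pos).ne'
    obtain ⟨c, hc⟩ := h4
    rw [hc] at hFodd
    have h5 := (Nat.odd_mul.mp hFodd).1
    rw [Nat.odd_iff] at h5
    omega
  have hcard : ∀ E' : Subfield F, Nat.card E' = q →
      2 * Nat.card (Matrix.ProjectiveSpecialLinearGroup (Fin 2) E') = q * (q ^ 2 - 1) := by
    intro E' hE'
    haveI : Fintype E' := Fintype.ofFinite _
    have := card_PSL2' E'
    rw [card_roots1_odd (hsub E'), ← Nat.card_eq_fintype_card, hE'] at this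
    exact this
  have hcH : 2 * Nat.card (embP E).range = q * (q ^ 2 - 1) := by rw [card_range_embP, hcard E hE]
  have hPP : 2 * Nat.card (Matrix.ProjectiveSpecialLinearGroup (Fin 2) F) = Fintype.card F * (Fintype.card F ^ 2 - 1) := by
    have := card_PP_eq (F := F)
    rwa [card_roots1_odd hch] at this
  refine coatom_of_subfield p E r hr (by rw [hE, hF]) (by omega) _ le_rfl
    (ne_top_of_card_le _ q r (by omega) hr.two_le hF.symm (by omega)) ?_ ?_
  · intro M hM hi
    have h1 : Nat.card (embP E).range ∣ Nat.card M := Subgroup.card_dvd_of_le hM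
    have h2 : Nat.card M ∣ Nat.card (Matrix.ProjectiveSpecialLinearGroup (Fin 2) F) := Subgroup.card_subgroup_dvd_card M
    -- arithmetic of the small cases
    have hcases : q = 3 ∨ q = 5 ∨ 7 ≤ q := by
      obtain ⟨u, hu⟩ := hq
      omega
    have h7 : 7 ≤ q → 168 ≤ Nat.card (embP E).range := by
      intro h
      have h2 : 49 ≤ q ^ 2 := by nlinarith
      have h3 : 48 ≤ q ^ 2 - 1 := by omega
      have h4 : 7 * 48 ≤ q * (q ^ 2 - 1) := Nat.mul_le_mul h h3
      omega
    obtain ⟨j, hj⟩ := hrodd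
    have h3F : q = 3 → ¬ 16 ∣ Fintype.card F * (Fintype.card F ^ 2 - 1) ∧ ¬ 5 ∣ Fintype.card F * (Fintype.card F ^ 2 - 1) := by
      intro h3
      have e1 : Fintype.card F ^ 2 = 9 ^ (2 * j + 1) := by
        rw [hF, h3, hj, ← pow_mul, mul_comm, pow_mul]
        norm_num
      rw [e1]
      have h5 := pow9_mod16' j
      have h6 := pow9_mod5' j
      have hoddF : ¬ 2 ∣ Fintype.card F := by
        intro h
        rw [Nat.odd_iff] at hFodd
        omega
      have h5F : ¬ 5 ∣ Fintype.card F := by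
        intro h
        rw [hF, h3] at h
        have := (Nat.Prime.dvd_of_dvd_pow (by norm_num) h)
        omega
      constructor
      · intro h
        have hcop : Nat.Coprime 16 (Fintype.card F) := by
          have : Nat.Coprime 2 (Fintype.card F) := (Nat.Prime.coprime_iff_not_dvd Nat.prime_two).mpr hoddF
          exact Nat.Coprime.pow_left 4 this
        have := hcop.dvd_of_dvd_mul_left h
        omega
      · intro h
        rcases (by norm_num : Nat.Prime 5).dvd_mul.mp h with h | h
        · exact h5F h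
        · omega
    rcases hi with ⟨⟨i⟩⟩ | ⟨⟨i⟩⟩ | ⟨⟨i⟩⟩
    · rw [Nat.card_congr i.toEquiv, card_A4] at h1
      have h8 := Nat.le_of_dvd (by norm_num) h1
      symm
      apply Subgroup.eq_of_le_of_card_ge hM
      rw [Nat.card_congr i.toEquiv, card_A4]
      rcases hcases with rfl | rfl | h
      · have e : (3 : ℕ) * (3 ^ 2 - 1) = 24 := by norm_num
        rw [e] at hcH
        omega
      · have e : (5 : ℕ) * (5 ^ 2 - 1) = 120 := by norm_num
        rw [e] at hcH
        omega
      · have := h7 h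
        omega
    · exfalso
      rw [Nat.card_congr i.toEquiv, card_S4] at h1 h2
      have h8 := Nat.le_of_dvd (by norm_num) h1
      rcases hcases with rfl | rfl | h
      · apply (h3F rfl).1
        rw [← hPP]
        obtain ⟨c, hc⟩ := h2
        rw [hc]
        exact ⟨3 * c, by ring⟩
      · have e : (5 : ℕ) * (5 ^ 2 - 1) = 120 := by norm_num
        rw [e] at hcH
        omega
      · have := h7 h
        omega
    · rw [Nat.card_congr i.toEquiv, card_A5] at h1 h2
      have h8 := Nat.le_of_dvd (by norm_num) h1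
      symm
      apply Subgroup.eq_of_le_of_card_ge hM
      rw [Nat.card_congr i.toEquiv, card_A5]
      rcases hcases with rfl | rfl | h
      · exfalso
        apply (h3F rfl).2
        rw [← hPP]
        obtain ⟨c, hc⟩ := h2
        rw [hc]
        exact ⟨24 * c, by ring⟩
      · have e : (5 : ℕ) * (5 ^ 2 - 1) = 120 := by norm_num
        rw [e] at hcH
        omega
      · have := h7 h
        omega
  · intro M E' hM hE' hi
    rcases hi with ⟨⟨i⟩⟩ | ⟨⟨i⟩⟩
    · symm
      apply Subgroup.eq_of_le_of_card_ge hM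
      rw [Nat.card_congr i.toEquiv]
      have h1 := hcard E' (by rw [hE', hE])
      omega
    · exfalso
      haveI : Fintype E' := Fintype.ofFinite _
      apply no_pgl_subgroup E' r hrodd hFodd _ M i
      rw [← Nat.card_eq_fintype_card, hE', hE, hF]

/-- `M ∩ L` is maximal in `L`, in odd characteristic. -/
theorem comap_coatom (hodd : Odd (Fintype.card F)) (h3 : 3 < Fintype.card F) (h7 : Fintype.card F ≠ 7)
    (h9 : Fintype.card F ≠ 9) (h11 : Fintype.card F ≠ 11)
    (h40 : (Fintype.card F).Prime → Fintype.card F % 40 ∉ ({11, 19, 21, 29} : Finset ℕ))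
    {M : Subgroup PG} (hM : IsCoatom M) (hML : ¬ (slG : SL(2, F) →* PG).range ≤ M) :
    IsCoatom (M.comap (rhoP : PP →* PG)) := by
  classical
  obtain ⟨p, hp⟩ := CharP.exists F
  haveI : Fact p.Prime := ⟨CharP.char_is_prime F p⟩
  have hpp : p.Prime := Fact.out
  have h5 : 5 ≤ Fintype.card F := by
    obtain ⟨t, ht⟩ := hodd
    omega
  rcases pgl2_struct p hodd h3 hM hML with ⟨y, hy1, hτ, he⟩ | ⟨x, hτ, he, h3', -⟩ | ⟨h1, h8, ⟨iH⟩, -⟩ |
    ⟨E₁, f, r, hf, hr, hro, hc, hs, he, -⟩
  · rw [he]
    exact unip_coatom y hy1 hτ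
  · rw [he]
    exact torus_coatom p hodd h5 h7 h9 h11 x hτ h3'
  · have h6 := h40 (by rw [h1]; exact hpp)
    simp only [Finset.mem_insert, Finset.mem_singleton, not_or] at h6
    rw [h1] at h6
    have hodd' : p % 2 = 1 := by
      rw [← h1]
      exact Nat.odd_iff.mp hodd
    exact A4_coatom p h1 (by omega) h8 (by omega) _ iH
  · apply isCoatom_of_map (indP f)
    rw [he]
    exact subfield_coatom p E₁ r hr hro hc hodd hs

/-- `M ∩ L` is maximal in `L`. -/
theorem inter_coatom (h4 : 4 ≤ Fintype.card F) (h7 : Fintype.card F ≠ 7) (h9 : Fintype.card F ≠ 9) (h11 : Fintype.card F ≠ 11)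
    (h40 : (Fintype.card F).Prime → Fintype.card F % 40 ∉ ({11, 19, 21, 29} : Finset ℕ))
    {M : Subgroup PG} (hM : IsCoatom M) (hML : ¬ (slG : SL(2, F) →* PG).range ≤ M) :
    IsCoatom ((M ⊓ (slG : SL(2, F) →* PG).range).subgroupOf (slG : SL(2, F) →* PG).range) := by
  classical
  by_cases hodd : Odd (Fintype.card F)
  · have hc := comap_coatom hodd h4 h7 h9 h11 h40 hM hML
    let ψ : PP ≃* (slG : SL(2, F) →* PG).range :=
      (MonoidHom.ofInjective rhoP_injective).trans (MulEquiv.subgroupCongr range_rhoP)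
    have hψ : ∀ y : PP, ((ψ y : (slG : SL(2, F) →* PG).range) : PG) = rhoP y := fun y => rfl
    have e : (M ⊓ (slG : SL(2, F) →* PG).range).subgroupOf (slG : SL(2, F) →* PG).range =
        (M.comap (rhoP : PP →* PG)).map ψ.toMonoidHom := by
      ext g
      rw [Subgroup.mem_subgroupOf, Subgroup.mem_inf, Subgroup.mem_map_equiv, Subgroup.mem_comap]
      have h1 : rhoP (ψ.symm g) = (g : PG) := by
        rw [← hψ, MulEquiv.apply_symm_apply]
      rw [h1]
      exact ⟨fun h => h.1, fun h => ⟨h, g.2⟩⟩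
    rw [e]
    exact isCoatom_map_equiv ψ hc
  · have hev : Even (Fintype.card F) := Nat.not_odd_iff_even.mp hodd
    have hq1 : 1 < Fintype.card F := Fintype.one_lt_card
    have hg : Nat.gcd 2 (Fintype.card F - 1) = 1 := by
      have h6 : Nat.Coprime 2 (Fintype.card F - 1) := (Nat.Prime.coprime_iff_not_dvd Nat.prime_two).mpr (by
        obtain ⟨t, ht⟩ := hev
        omega)
      exact h6
    have hP := card_PP_eq (F := F)
    rw [card_roots1_eq_gcd, hg, one_mul] at hP
    have htop : (slG : SL(2, F) →* PG).range = ⊤ := by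
      apply Subgroup.eq_top_of_card_eq
      rw [← range_rhoP, card_PGL2, ← hP]
      exact (Nat.card_congr (MonoidHom.ofInjective rhoP_injective).toEquiv).symm
    let θ : PG ≃* (slG : SL(2, F) →* PG).range :=
      Subgroup.topEquiv.symm.trans (MulEquiv.subgroupCongr htop.symm)
    have hθ : ∀ g : PG, ((θ g : (slG : SL(2, F) →* PG).range) : PG) = g := fun g => rfl
    have e : (M ⊓ (slG : SL(2, F) →* PG).range).subgroupOf (slG : SL(2, F) →* PG).range =
        M.map θ.toMonoidHom := by
      ext g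
      rw [Subgroup.mem_subgroupOf, Subgroup.mem_inf, Subgroup.mem_map_equiv]
      have h1 : θ.symm g = (g : PG) := by
        conv_rhs => rw [← θ.apply_symm_apply g]
        rw [hθ]
      rw [h1]
      exact ⟨fun h => h.1, fun h => ⟨h, g.2⟩⟩
    rw [e]
    exact isCoatom_map_equiv θ hM

end Cfsg.Agent.Lib.Classical.Dick
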