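import Mathlib
import Cfsg.Agent.Lib.Classical.Dick.Min
import Cfsg.Agent.Lib.Classical.Dick.Pgl1
import Cfsg.Agent.Lib.Classical.Dick.Over
import Cfsg.Agent.Lib.Piwek.Core

/-!
Solvable two-generator subgroups of `PSL₂(F)` in characteristic two.
-/

set_option autoImplicit false
set_option linter.unusedSimpArgs false
set_option linter.unusedVariables false

namespace Cfsg.Agent.Lib.Classical.Dick

open Matrix
open scoped MatrixGroups
open Cfsg.Agent.Lib.KS2.SL2

section generic

variable {G : Type*} [Group G]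

lemma solv_of_le {A B : Subgroup G} (h : A ≤ B) (hB : Group.IsSolvable B) : Group.IsSolvable A := by
  haveI := hB
  exact Group.isSolvable_of_isSolvable_injective (f := Subgroup.inclusion h) (Subgroup.inclusion_injective h)

lemma solv_of_comm (A : Subgroup G) (h : ∀ a ∈ A, ∀ b ∈ A, a * b = b * a) : Group.IsSolvable A :=
  isSolvable_of_comm fun a b => Subtype.ext (h _ a.2 _ b.2)

lemma solv_closure_comm (x y : G) (h : x * y = y * x) : Group.IsSolvable (Subgroup.closure ({x, y} : Set G)) := by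
  letI := Subgroup.closureCommGroupOfComm (k := ({x, y} : Set G)) (by
    rintro a (rfl | rfl) b (rfl | rfl)
    · rfl
    · exact h
    · exact h.symm
    · rfl)
  exact isSolvable_of_comm (fun a b => mul_comm a b)

lemma solv_inverts [Finite G] (u v : G) (hv : v * v = 1) (h : v * u * v⁻¹ = u⁻¹) :
    Group.IsSolvable (Subgroup.closure ({u, v} : Set G)) := by
  have h1 : ⁅Subgroup.closure ({u, v} : Set G), Subgroup.closure ({u, v} : Set G)⁆ ≤ Subgroup.closure ({u} : Set G) := by
    have hu : u ∈ Subgroup.closure ({u} : Set G) := Subgroup.subset_closure rfl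
    apply Cfsg.Agent.Lib.Piwek.commutator_closure_le
    · rintro s (rfl | rfl) t (rfl : t = _)
      · simpa using hu
      · rw [h]; exact Subgroup.inv_mem _ hu
    · rintro a (rfl | rfl) b (rfl | rfl)
      · simp [Subgroup.one_mem]
      · have e : a * b * a⁻¹ * b⁻¹ = a * (b * a * b⁻¹)⁻¹ := by group
        rw [e, h, inv_inv]
        exact Subgroup.mul_mem _ hu hu
      · rw [h]
        exact Subgroup.mul_mem _ (Subgroup.inv_mem _ hu) (Subgroup.inv_mem _ hu)
      · simp [Subgroup.one_mem]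
  haveI : Group.IsSolvable (Subgroup.closure ({u} : Set G)) := by
    have := solv_closure_comm u u rfl
    rwa [Set.pair_eq_singleton] at this
  exact Cfsg.Agent.Lib.Piwek.solvable_of_commutator_le h1

lemma solv_two_inv [Finite G] (a b : G) (ha : a * a = 1) (hb : b * b = 1) :
    Group.IsSolvable (Subgroup.closure ({a, b} : Set G)) := by
  have hai : a⁻¹ = a := by rw [inv_eq_iff_mul_eq_one]; exact ha
  have hbi : b⁻¹ = b := by rw [inv_eq_iff_mul_eq_one]; exact hb
  have h0 := solv_inverts (a * b) a ha (by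
    rw [_root_.mul_inv_rev, hai, hbi]
    calc a * (a * b) * a = (a * a) * b * a := by group
      _ = b * a := by rw [ha, one_mul])
  apply solv_of_le _ h0
  rw [Subgroup.closure_le]
  rintro z (rfl | rfl)
  · exact Subgroup.subset_closure (Or.inr rfl)
  · have h2 := Subgroup.mul_mem (Subgroup.closure ({a * z, a} : Set G)) (Subgroup.subset_closure (Or.inr rfl)) (Subgroup.subset_closure (Or.inl rfl) : a * z ∈ _)
    rwa [← mul_assoc, ha, one_mul] at h2

/-- conjugate closures have the same solvability. -/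
lemma solv_conj_iff (g x y : G) : Group.IsSolvable (Subgroup.closure ({g * x * g⁻¹, g * y * g⁻¹} : Set G)) ↔
    Group.IsSolvable (Subgroup.closure ({x, y} : Set G)) := by
  have e : Subgroup.closure ({g * x * g⁻¹, g * y * g⁻¹} : Set G) =
      (Subgroup.closure ({x, y} : Set G)).map ((MulAut.conj g : G ≃* G) : G →* G) := by
    rw [MonoidHom.map_closure]
    congr 1
    rw [Set.image_pair]
    rfl
  rw [e]
  have i := (MulAut.conj g).subgroupMap (Subgroup.closure ({x, y} : Set G))
  constructor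
  · intro h
    haveI := h
    exact Group.isSolvable_of_isSolvable_injective (f := i.toMonoidHom) i.injective
  · intro h
    haveI := h
    exact Group.isSolvable_of_isSolvable_injective (f := i.symm.toMonoidHom) i.symm.injective

end generic

section dih

lemma dih_inv_or (k : ℕ) (x y : DihedralGroup k) (hx : x * x ≠ 1) : y * x * y⁻¹ = x ∨ y * x * y⁻¹ = x⁻¹ := by
  rcases x with i | i
  · rcases y with j | j
    · left
      simp [DihedralGroup.r_mul_r, DihedralGroup.inv_r]
    · right
      simp [DihedralGroup.sr_mul_r, DihedralGroup.inv_sr, DihedralGroup.sr_mul_sr, DihedralGroup.inv_r]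
  · exact absurd (DihedralGroup.sr_mul_self i) hx

lemma dih_odd (k : ℕ) (hk : Odd k) (x y : DihedralGroup k) (hx : x * x = 1) (hx1 : x ≠ 1) :
    y * y = 1 ∨ (x * y) * (x * y) = 1 := by
  rcases x with i | i
  · exfalso
    apply hx1
    have h1 : DihedralGroup.r (i + i) = (1 : DihedralGroup k) := by
      rw [← DihedralGroup.r_mul_r]; exact hx
    have h2 : i + i = 0 := by
      rw [DihedralGroup.one_def] at h1
      exact DihedralGroup.r.inj h1
    have h3 : IsUnit (2 : ZMod k) := by
      have := (ZMod.isUnit_iff_coprime 2 k).mpr (Nat.coprime_two_left.mpr hk)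
      simpa using this
    have h4 : (2 : ZMod k) * i = 0 := by rw [two_mul]; exact h2
    have h5 : i = 0 := by
      obtain ⟨u, hu⟩ := h3
      rw [← hu] at h4
      simpa using h4
    rw [h5]
    rfl
  · rcases y with j | j
    · right
      rw [DihedralGroup.sr_mul_r]
      exact DihedralGroup.sr_mul_self _
    · left
      exact DihedralGroup.sr_mul_self _

variable {H : Type*} [Group H]

lemma iso_inv_or (k : ℕ) (i : H ≃* DihedralGroup k) (x y : H) (hx : x * x ≠ 1) :
    y * x * y⁻¹ = x ∨ y * x * y⁻¹ = x⁻¹ := by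
  have h0 : i x * i x ≠ 1 := by
    intro h
    apply hx
    apply i.injective
    simpa using h
  rcases dih_inv_or k (i x) (i y) h0 with h | h
  · left
    apply i.injective
    simpa using h
  · right
    apply i.injective
    simpa using h

lemma iso_odd (k : ℕ) (hk : Odd k) (i : H ≃* DihedralGroup k) (x y : H) (hx : x * x = 1) (hx1 : x ≠ 1) :
    y * y = 1 ∨ (x * y) * (x * y) = 1 := by
  have h0 : i x * i x = 1 := by rw [← map_mul, hx, map_one]
  have h1 : i x ≠ 1 := by
    intro h
    apply hx1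
    apply i.injective
    simpa using h
  rcases dih_odd k hk (i x) (i y) h0 h1 with h | h
  · left
    apply i.injective
    simpa using h
  · right
    apply i.injective
    simpa using h

end dih

variable {F : Type*} [Field F]

local notation "PP" => Matrix.ProjectiveSpecialLinearGroup (Fin 2) F

section char2

variable [CharP F 2]

lemma sc_one (h : (1 : F) * 1 = 1) : (sc (1 : F) h : SL(2, F)) = 1 := by
  apply ext4 <;> simp

lemma eps_eq_one (e : F) (h : e * e = 1) : e = 1 := by
  have h1 : (e + 1) * (e + 1) = 0 := by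
    have h2 : (2 : F) = 0 := CharTwo.two_eq_zero
    linear_combination h + (e + 1) * h2
  have h3 : e + 1 = 0 := by
    rcases mul_eq_zero.mp h1 with h | h <;> exact h
  have h4 : e = -1 := eq_neg_of_add_eq_zero_left h3
  rw [h4, CharTwo.neg_eq]

lemma pi_inj2 : Function.Injective (pi : SL(2, F) →* PP) := by
  intro a b h
  obtain ⟨e, he, h1⟩ := (pi_eq_iff a b).mp h
  obtain rfl := eps_eq_one e he
  rw [h1, sc_one, one_mul]

lemma sq_one_of_tr (x : SL(2, F)) (h : tr x = 0) : x * x = 1 := by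
  have hd := det_rel x
  have h2 : (2 : F) = 0 := CharTwo.two_eq_zero
  have ht : (x : Matrix (Fin 2) (Fin 2) F) 1 1 = (x : Matrix (Fin 2) (Fin 2) F) 0 0 := by
    have h' : (x : Matrix (Fin 2) (Fin 2) F) 0 0 + (x : Matrix (Fin 2) (Fin 2) F) 1 1 = 0 := h
    linear_combination h' - (x : Matrix (Fin 2) (Fin 2) F) 0 0 * h2
  simp only [ht] at hd
  apply ext4
  · simp only [mul00, one00]
    linear_combination hd + (x : Matrix (Fin 2) (Fin 2) F) 0 1 * (x : Matrix (Fin 2) (Fin 2) F) 1 0 * h2
  · simp only [mul01, one01, ht]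
    linear_combination (x : Matrix (Fin 2) (Fin 2) F) 0 0 * (x : Matrix (Fin 2) (Fin 2) F) 0 1 * h2
  · simp only [mul10, one10, ht]
    linear_combination (x : Matrix (Fin 2) (Fin 2) F) 0 0 * (x : Matrix (Fin 2) (Fin 2) F) 1 0 * h2
  · simp only [mul11, one11, ht]
    linear_combination hd + (x : Matrix (Fin 2) (Fin 2) F) 0 1 * (x : Matrix (Fin 2) (Fin 2) F) 1 0 * h2

lemma tr_of_sq_one (x : SL(2, F)) (h : x * x = 1) : tr x = 0 := by
  by_contra hτ
  have hd := det_rel x
  have h2 : (2 : F) = 0 := CharTwo.two_eq_zero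
  have h00 := congrArg (fun g : SL(2, F) => (g : Matrix (Fin 2) (Fin 2) F) 0 0) h
  have h01 := congrArg (fun g : SL(2, F) => (g : Matrix (Fin 2) (Fin 2) F) 0 1) h
  have h10 := congrArg (fun g : SL(2, F) => (g : Matrix (Fin 2) (Fin 2) F) 1 0) h
  have h11 := congrArg (fun g : SL(2, F) => (g : Matrix (Fin 2) (Fin 2) F) 1 1) h
  simp only [mul00, mul01, mul10, mul11, one00, one01, one10, one11] at h00 h01 h10 h11
  have e01 : (x : Matrix (Fin 2) (Fin 2) F) 0 1 = 0 := by
    have : tr x * (x : Matrix (Fin 2) (Fin 2) F) 0 1 = 0 := by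
      simp only [tr]; linear_combination h01
    exact (mul_eq_zero.mp this).resolve_left hτ
  have e10 : (x : Matrix (Fin 2) (Fin 2) F) 1 0 = 0 := by
    have : tr x * (x : Matrix (Fin 2) (Fin 2) F) 1 0 = 0 := by
      simp only [tr]; linear_combination h10
    exact (mul_eq_zero.mp this).resolve_left hτ
  rw [e01, e10] at h00 h11
  have a1 := eps_eq_one _ (by simpa using h00)
  have d1 := eps_eq_one _ (by simpa using h11)
  apply hτ
  simp only [tr, a1, d1]
  linear_combination h2

lemma tr_mul_self2 (x : SL(2, F)) : tr (x * x) = (tr x) * (tr x) := by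
  have hd := det_rel x
  have h2 : (2 : F) = 0 := CharTwo.two_eq_zero
  simp only [tr, mul00, mul11]
  linear_combination ((x : Matrix (Fin 2) (Fin 2) F) 0 1 * (x : Matrix (Fin 2) (Fin 2) F) 1 0 - (x : Matrix (Fin 2) (Fin 2) F) 0 0 * (x : Matrix (Fin 2) (Fin 2) F) 1 1) * h2

end char2

section main

variable [Fintype F] [CharP F 2]

lemma sq_of_pow_four (z : PP) (h : z ^ 4 = 1) : z * z = 1 := by
  obtain ⟨Z, rfl⟩ := pi_surj z
  have h1 : (Z * Z) * (Z * Z) = 1 := by
    apply pi_inj2
    rw [map_one, map_mul, map_mul, ← h]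
    simp only [pow_succ, pow_zero, one_mul, mul_assoc]
  have h2 := tr_of_sq_one _ h1
  rw [tr_mul_self2] at h2
  have h3 : tr Z = 0 := mul_self_eq_zero.mp h2
  rw [← map_mul, sq_one_of_tr Z h3, map_one]

lemma card_odd : Odd (Fintype.card F - 1) ∧ Odd (Fintype.card F + 1) := by
  obtain ⟨n, -, hn⟩ := FiniteField.card F 2
  have h1 : Even (Fintype.card F) := by
    rw [hn]
    exact (Nat.even_pow' n.ne_zero).mpr even_two
  have h2 : 1 < Fintype.card F := Fintype.one_lt_card
  obtain ⟨m, hm⟩ := h1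
  constructor
  · exact ⟨m - 1, by omega⟩
  · exact ⟨m, by omega⟩

theorem solv_cases (H : Subgroup PP) (hH : Group.IsSolvable H) :
    (∀ a b : H, a * b = b * a) ∨ (∃ k, Odd k ∧ Nonempty (H ≃* DihedralGroup k)) ∨
      (∃ Q : Sylow 2 PP, H ≤ Subgroup.normalizer ((Q : Subgroup PP) : Set PP)) := by
  classical
  haveI : Fact (Nat.Prime 2) := ⟨Nat.prime_two⟩
  obtain ⟨hq1, hq2⟩ := card_odd (F := F)
  have hg : Nat.gcd 2 (Fintype.card F - 1) = 1 := Nat.coprime_two_left.mpr hq1
  rcases dickson_main rfl 2 H with ⟨k, hk, h⟩ | ⟨Q, hQ⟩ | ⟨⟨i⟩⟩ | ⟨⟨i⟩⟩ | ⟨⟨i⟩⟩ | ⟨S, hS4', -, hS⟩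
  · rcases h with ⟨hcyc, -⟩ | ⟨⟨i⟩⟩
    · left
      letI := IsCyclic.commGroup (α := H)
      exact mul_comm
    · right; left
      refine ⟨k, ?_, ⟨i⟩⟩
      rw [hg, Nat.div_one, Nat.div_one] at hk
      rcases hk with hk | hk
      · exact Odd.of_dvd_nat hq2 hk
      · exact Odd.of_dvd_nat hq1 hk
  · exact Or.inr (Or.inr ⟨Q, hQ⟩)
  · right; right
    have hsub : Subsingleton (Sylow 2 H) := by
      haveI := alternatingGroup.subsingleton_two_sylow (α := Fin 4) (by simp)
      have hs : Function.Surjective (i.symm.toMonoidHom) := i.symm.surjective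
      exact (Sylow.mapSurjective_surjective hs 2).subsingleton
    obtain ⟨S⟩ := Sylow.nonempty (G := H) (p := 2)
    apply normal_case 2 H S (Sylow.normal_of_subsingleton S)
    by_contra hc
    have h1 : Nat.card (S : Subgroup H) = 1 := by
      have : 0 < Nat.card (S : Subgroup H) := Nat.card_pos
      omega
    have h2 := Subgroup.card_mul_index (S : Subgroup H)
    rw [h1, one_mul, Nat.card_congr i.toEquiv, card_A4] at h2
    apply S.not_dvd_index
    rw [h2]
    norm_num
  · exfalso
    let g : Equiv.Perm (Fin 4) := Equiv.swap 0 1 * Equiv.swap 1 2 * Equiv.swap 2 3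
    have hg4 : g ^ 4 = 1 := by decide
    have hg2 : g * g ≠ 1 := by decide
    apply hg2
    have h1 : ((i.symm g : H) : PP) ^ 4 = 1 := by
      have : (i.symm g) ^ 4 = 1 := by rw [← map_pow, hg4, map_one]
      exact congrArg Subtype.val this
    have h2 := sq_of_pow_four _ h1
    have h3 : (i.symm g) * (i.symm g) = 1 := Subtype.ext h2
    have h4 := congrArg i h3
    simpa using h4
  · exfalso
    haveI := hH
    exact not_solvable_A5 (Group.isSolvable_of_isSolvable_injective (f := i.symm.toMonoidHom) i.symm.injective)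
  · exfalso
    obtain ⟨E, f, hE, -, -, -, -, hiso⟩ := hS
    haveI : Fintype E := Fintype.ofFinite _
    have h4E : 4 ≤ Fintype.card E := by
      rw [← Nat.card_eq_fintype_card, hE]
      exact hS4'
    haveI := hH
    apply not_solvable_PSL E h4E
    rcases hiso with (⟨⟨i⟩⟩ | ⟨⟨i⟩⟩)
    · exact Group.isSolvable_of_isSolvable_injective (f := i.symm.toMonoidHom) i.symm.injective
    · haveI : Group.IsSolvable (Matrix.ProjGenLinGroup (Fin 2) E) :=
        Group.isSolvable_of_isSolvable_injective (f := i.symm.toMonoidHom) i.symm.injective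
      exact Group.isSolvable_of_isSolvable_injective (f := (rhoP : Matrix.ProjectiveSpecialLinearGroup (Fin 2) E →* _)) rhoP_injective

lemma conj10 (g z : SL(2, F)) : ((g * z * g⁻¹ : SL(2, F)) : Matrix (Fin 2) (Fin 2) F) 1 0 =
    (g : Matrix (Fin 2) (Fin 2) F) 1 0 * ((z : Matrix (Fin 2) (Fin 2) F) 0 0 * (g : Matrix (Fin 2) (Fin 2) F) 1 1 - (z : Matrix (Fin 2) (Fin 2) F) 0 1 * (g : Matrix (Fin 2) (Fin 2) F) 1 0) +
    (g : Matrix (Fin 2) (Fin 2) F) 1 1 * ((z : Matrix (Fin 2) (Fin 2) F) 1 0 * (g : Matrix (Fin 2) (Fin 2) F) 1 1 - (z : Matrix (Fin 2) (Fin 2) F) 1 1 * (g : Matrix (Fin 2) (Fin 2) F) 1 0) := by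
  simp only [mul10, mul00, mul11, mul01, inv00, inv10, inv01, inv11]
  ring

/-- A subgroup normalising a Sylow subgroup has a common eigenline. -/
lemma exists_line (H : Subgroup PP) (Q : Sylow 2 PP) (hQ : H ≤ Subgroup.normalizer ((Q : Subgroup PP) : Set PP)) :
    ∃ g : SL(2, F), ∀ z : SL(2, F), pi z ∈ H → ((g * z * g⁻¹ : SL(2, F)) : Matrix (Fin 2) (Fin 2) F) 1 0 = 0 := by
  haveI : Fact (Nat.Prime 2) := ⟨Nat.prime_two⟩
  obtain ⟨g, hg⟩ := exists_conj_le_BP 2 Q H hQ
  obtain ⟨g', rfl⟩ := pi_surj g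
  refine ⟨g', fun z hz => ?_⟩
  have h1 := hg ⟨_, hz, rfl⟩
  rw [← mem_BP_pi]
  simpa [map_mul] using h1

end main

section forms

variable [Fintype F] [CharP F 2]

/-- the solvability condition -/
abbrev SolvP (x y : PP) : Prop := Group.IsSolvable (Subgroup.closure ({x, y} : Set PP))

lemma mem_l (x y : PP) : x ∈ Subgroup.closure ({x, y} : Set PP) := Subgroup.subset_closure (Or.inl rfl)
lemma mem_r (x y : PP) : y ∈ Subgroup.closure ({x, y} : Set PP) := Subgroup.subset_closure (Or.inr rfl)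

lemma solv_of_BP (x y : PP) (hx : x ∈ BP F) (hy : y ∈ BP F) : SolvP x y := by
  apply solv_of_le _ (solvable_BP (F := F))
  rw [Subgroup.closure_le]
  rintro z (rfl | rfl)
  · exact hx
  · exact hy

lemma comm_of_hc (x y : PP) (hc : ∀ a b : Subgroup.closure ({x, y} : Set PP), a * b = b * a) : x * y = y * x :=
  congrArg Subtype.val (hc ⟨x, mem_l x y⟩ ⟨y, mem_r x y⟩)

/-- The unipotent form. -/
theorem solv_unip (b : F) (hb : b ≠ 0) (y : SL(2, F)) :
    SolvP (pi (uu b)) (pi y) ↔ (y : Matrix (Fin 2) (Fin 2) F) 1 0 = 0 ∨ tr y = 0 ∨ tr (uu b * y) = 0 := by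
  have hxx : (uu b : SL(2, F)) * uu b = 1 := sq_one_of_tr _ (by simp [tr]; exact CharTwo.add_self_eq_zero 1)
  have hxP : (pi (uu b) : PP) * pi (uu b) = 1 := by rw [← map_mul, hxx, map_one]
  constructor
  · intro h
    rcases solv_cases _ h with hc | ⟨k, hk, ⟨i⟩⟩ | ⟨Q, hQ⟩
    · left
      have h1 := pi_inj2 ((map_mul _ _ _).trans ((comm_of_hc _ _ hc).trans (map_mul _ _ _).symm))
      have h2 := congrArg (fun g : SL(2, F) => (g : Matrix (Fin 2) (Fin 2) F) 0 0) h1
      simp only [mul00, uu00, uu01, uu10, uu11] at h2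
      have h3 : b * (y : Matrix (Fin 2) (Fin 2) F) 1 0 = 0 := by linear_combination h2
      exact (mul_eq_zero.mp h3).resolve_left hb
    · right
      have h1 : (⟨_, mem_l _ _⟩ : Subgroup.closure ({(pi (uu b) : PP), pi y} : Set PP)) * ⟨_, mem_l _ _⟩ = 1 :=
        Subtype.ext hxP
      have h2 : (⟨_, mem_l _ _⟩ : Subgroup.closure ({(pi (uu b) : PP), pi y} : Set PP)) ≠ 1 := by
        intro h
        have h3 := congrArg Subtype.val h
        exact pi_uu_ne b hb h3
      rcases iso_odd k hk i _ ⟨_, mem_r _ _⟩ h1 h2 with h3 | h3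
      · left
        apply tr_of_sq_one
        apply pi_inj2
        rw [map_mul, map_one]
        exact congrArg Subtype.val h3
      · right
        apply tr_of_sq_one
        apply pi_inj2
        rw [map_mul, map_mul, map_one]
        exact congrArg Subtype.val h3
    · left
      obtain ⟨g, hg⟩ := exists_line _ Q hQ
      have e1 := hg (uu b) (mem_l _ _)
      have e2 := hg y (mem_r _ _)
      rw [conj10] at e1 e2
      simp only [uu00, uu01, uu10, uu11] at e1
      have ht : (g : Matrix (Fin 2) (Fin 2) F) 1 0 = 0 := by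
        have : b * ((g : Matrix (Fin 2) (Fin 2) F) 1 0 * (g : Matrix (Fin 2) (Fin 2) F) 1 0) = 0 := by
          linear_combination -e1
        exact mul_self_eq_zero.mp ((mul_eq_zero.mp this).resolve_left hb)
      have hr : (g : Matrix (Fin 2) (Fin 2) F) 1 1 ≠ 0 := by
        intro h0
        have := det_rel g
        rw [ht, h0] at this
        simp at this
      rw [ht] at e2
      have : (g : Matrix (Fin 2) (Fin 2) F) 1 1 * (g : Matrix (Fin 2) (Fin 2) F) 1 1 * (y : Matrix (Fin 2) (Fin 2) F) 1 0 = 0 := by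
        linear_combination e2
      exact (mul_eq_zero.mp this).resolve_left (mul_ne_zero hr hr)
  · rintro (h | h | h)
    · apply solv_of_BP
      · rw [mem_BP_pi]; simp
      · rw [mem_BP_pi]; exact h
    · apply solv_two_inv _ _ hxP
      rw [← map_mul, sq_one_of_tr y h, map_one]
    · have h1 := sq_one_of_tr _ h
      have h2 := solv_two_inv (pi (uu b) : PP) (pi (uu b) * pi y) hxP (by
        rw [← map_mul, ← map_mul, h1, map_one])
      apply solv_of_le _ h2
      rw [Subgroup.closure_le]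
      rintro z (rfl | rfl)
      · exact mem_l _ _
      · have h3 := Subgroup.mul_mem _ (mem_l (pi (uu b) : PP) (pi (uu b) * pi y)) (mem_r (pi (uu b) : PP) (pi (uu b) * pi y))
        rwa [← mul_assoc, hxP, one_mul] at h3

/-- The split form. -/
theorem solv_split (a : F) (ha : a ≠ 0) (ha1 : a ≠ 1) (hd : a * a⁻¹ - 0 * 0 = 1) (y : SL(2, F)) :
    SolvP (pi (mk a 0 0 a⁻¹ hd)) (pi y) ↔ (y : Matrix (Fin 2) (Fin 2) F) 1 0 = 0 ∨ (y : Matrix (Fin 2) (Fin 2) F) 0 1 = 0 ∨
      ((y : Matrix (Fin 2) (Fin 2) F) 0 0 = 0 ∧ (y : Matrix (Fin 2) (Fin 2) F) 1 1 = 0) := by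
  set D : SL(2, F) := mk a 0 0 a⁻¹ hd with hD
  have hδ : a - a⁻¹ ≠ 0 := by
    intro h
    have h1 : a * a = 1 := by
      have h2 : a = a⁻¹ := sub_eq_zero.mp h
      nth_rewrite 2 [h2]
      exact mul_inv_cancel₀ ha
    exact ha1 (eps_eq_one a h1)
  have hcomm : ∀ u : SL(2, F), u * D = D * u → (u : Matrix (Fin 2) (Fin 2) F) 0 1 = 0 := by
    intro u hu
    have h2 := congrArg (fun g : SL(2, F) => (g : Matrix (Fin 2) (Fin 2) F) 0 1) hu
    simp only [mul01, hD, mk00, mk01, mk10, mk11] at h2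
    have h3 : (a - a⁻¹) * (u : Matrix (Fin 2) (Fin 2) F) 0 1 = 0 := by linear_combination -h2
    exact (mul_eq_zero.mp h3).resolve_left hδ
  have hD2 : D⁻¹ = mk a⁻¹ 0 0 a (by rw [inv_mul_cancel₀ ha]; ring) := by
    rw [inv_eq_iff_mul_eq_one]
    apply ext4 <;> simp [hD, mul00, mul01, mul10, mul11, ha]
  have hDD : (pi D : PP) * pi D ≠ 1 := by
    intro h
    rw [← map_mul] at h
    have h1 : D * D = 1 := pi_inj2 (by rw [h, map_one])
    have h2 := congrArg (fun g : SL(2, F) => (g : Matrix (Fin 2) (Fin 2) F) 0 0) h1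
    simp only [mul00, hD, mk00, mk01, mk10, mk11, one00] at h2
    exact ha1 (eps_eq_one a (by linear_combination h2))
  constructor
  · intro h
    rcases solv_cases _ h with hc | ⟨k, hk, ⟨i⟩⟩ | ⟨Q, hQ⟩
    · right; left
      apply hcomm
      exact pi_inj2 ((map_mul _ _ _).trans ((comm_of_hc _ _ hc).symm.trans (map_mul _ _ _).symm))
    · have h1 : (⟨_, mem_l _ _⟩ : Subgroup.closure ({(pi D : PP), pi y} : Set PP)) * ⟨_, mem_l _ _⟩ ≠ 1 := by
        intro h2
        exact hDD (congrArg Subtype.val h2)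
      rcases iso_inv_or k i _ ⟨_, mem_r _ _⟩ h1 with h2 | h2
      · right; left
        apply hcomm
        apply pi_inj2
        have h3 : (pi y : PP) * pi D * (pi y)⁻¹ = pi D := congrArg Subtype.val h2
        rw [map_mul, map_mul]
        rw [mul_inv_eq_iff_eq_mul] at h3
        exact h3
      · right; right
        have h3 : (pi y : PP) * pi D * (pi y)⁻¹ = (pi D)⁻¹ := congrArg Subtype.val h2
        have h4 : y * D = D⁻¹ * y := by
          apply pi_inj2
          rw [map_mul, map_mul, map_inv, ← h3]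
          group
        rw [hD2] at h4
        have h5 := congrArg (fun g : SL(2, F) => (g : Matrix (Fin 2) (Fin 2) F) 0 0) h4
        have h6 := congrArg (fun g : SL(2, F) => (g : Matrix (Fin 2) (Fin 2) F) 1 1) h4
        simp only [mul00, mul11, hD, mk00, mk01, mk10, mk11] at h5 h6
        constructor
        · have h7 : (a - a⁻¹) * (y : Matrix (Fin 2) (Fin 2) F) 0 0 = 0 := by linear_combination h5
          exact (mul_eq_zero.mp h7).resolve_left hδ
        · have h7 : (a - a⁻¹) * (y : Matrix (Fin 2) (Fin 2) F) 1 1 = 0 := by linear_combination -h6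
          exact (mul_eq_zero.mp h7).resolve_left hδ
    · obtain ⟨g, hg⟩ := exists_line _ Q hQ
      have e1 := hg D (mem_l _ _)
      have e2 := hg y (mem_r _ _)
      rw [conj10] at e1 e2
      simp only [hD, mk00, mk01, mk10, mk11] at e1
      have hrt : (g : Matrix (Fin 2) (Fin 2) F) 1 0 * (g : Matrix (Fin 2) (Fin 2) F) 1 1 = 0 := by
        have : (a - a⁻¹) * ((g : Matrix (Fin 2) (Fin 2) F) 1 0 * (g : Matrix (Fin 2) (Fin 2) F) 1 1) = 0 := by
          linear_combination e1
        exact (mul_eq_zero.mp this).resolve_left hδ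
      have hdet := det_rel g
      rcases mul_eq_zero.mp hrt with ht | hr
      · left
        have hr : (g : Matrix (Fin 2) (Fin 2) F) 1 1 ≠ 0 := by
          intro h0
          rw [ht, h0] at hdet
          simp at hdet
        rw [ht] at e2
        have : (g : Matrix (Fin 2) (Fin 2) F) 1 1 * (g : Matrix (Fin 2) (Fin 2) F) 1 1 * (y : Matrix (Fin 2) (Fin 2) F) 1 0 = 0 := by
          linear_combination e2
        exact (mul_eq_zero.mp this).resolve_left (mul_ne_zero hr hr)
      · right; left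
        have ht : (g : Matrix (Fin 2) (Fin 2) F) 1 0 ≠ 0 := by
          intro h0
          rw [hr, h0] at hdet
          simp at hdet
        rw [hr] at e2
        have : (g : Matrix (Fin 2) (Fin 2) F) 1 0 * (g : Matrix (Fin 2) (Fin 2) F) 1 0 * (y : Matrix (Fin 2) (Fin 2) F) 0 1 = 0 := by
          linear_combination -e2
        exact (mul_eq_zero.mp this).resolve_left (mul_ne_zero ht ht)
  · rintro (h | h | ⟨h1, h2⟩)
    · apply solv_of_BP
      · rw [mem_BP_pi]; simp [hD]
      · rw [mem_BP_pi]; exact h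
    · -- conjugate by the antidiagonal matrix
      let W : SL(2, F) := mk 0 1 1 0 (by
        have h2 : (2 : F) = 0 := CharTwo.two_eq_zero
        linear_combination -h2)
      show Group.IsSolvable _
      rw [← solv_conj_iff (pi W)]
      apply solv_of_BP
      · have e : (pi W : PP) * pi D * (pi W)⁻¹ = pi (W * D * W⁻¹) := by simp
        rw [e, mem_BP_pi, conj10]
        simp [W, hD]
      · have e : (pi W : PP) * pi y * (pi W)⁻¹ = pi (W * y * W⁻¹) := by simp
        rw [e, mem_BP_pi, conj10]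
        simp [W, h]
    · have hy : y * y = 1 := sq_one_of_tr y (by simp only [tr, h1, h2]; ring)
      apply solv_inverts _ _ (by rw [← map_mul, hy, map_one])
      have h3 : y * D * y⁻¹ = D⁻¹ := by
        rw [mul_inv_eq_iff_eq_mul, hD2]
        apply ext4 <;> simp [hD, mul00, mul01, mul10, mul11, h1, h2, mul_comm]
      rw [← map_inv, ← map_mul, ← map_mul, ← map_inv, ← h3]

/-- The non-split form. -/
theorem solv_nonsplit (x : SL(2, F)) (hτ : tr x ≠ 0) (hf : ∀ u : F, u ^ 2 - tr x * u + 1 ≠ 0) (y : SL(2, F)) :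
    SolvP (pi x) (pi y) ↔ y * x * y⁻¹ = x ∨ y * x * y⁻¹ = x⁻¹ := by
  have hτ2 : (tr x) ^ 2 ≠ 4 := by
    have h2 : (2 : F) = 0 := CharTwo.two_eq_zero
    have h4 : (4 : F) = 0 := by linear_combination 2 * h2
    rw [h4]
    exact pow_ne_zero 2 hτ
  have hxx : (pi x : PP) * pi x ≠ 1 := by
    intro h
    rw [← map_mul] at h
    have h1 : x * x = 1 := pi_inj2 (by rw [h, map_one])
    exact hτ (tr_of_sq_one x h1)
  constructor
  · intro h
    rcases solv_cases _ h with hc | ⟨k, hk, ⟨i⟩⟩ | ⟨Q, hQ⟩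
    · left
      have h1 : y * x = x * y := pi_inj2 ((map_mul _ _ _).trans ((comm_of_hc _ _ hc).symm.trans (map_mul _ _ _).symm))
      rw [mul_inv_eq_iff_eq_mul]
      exact h1
    · have h1 : (⟨_, mem_l _ _⟩ : Subgroup.closure ({(pi x : PP), pi y} : Set PP)) * ⟨_, mem_l _ _⟩ ≠ 1 := by
        intro h2
        exact hxx (congrArg Subtype.val h2)
      rcases iso_inv_or k i _ ⟨_, mem_r _ _⟩ h1 with h2 | h2
      · left
        apply pi_inj2
        have h3 : (pi y : PP) * pi x * (pi y)⁻¹ = pi x := congrArg Subtype.val h2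
        simpa using h3
      · right
        apply pi_inj2
        have h3 : (pi y : PP) * pi x * (pi y)⁻¹ = (pi x)⁻¹ := congrArg Subtype.val h2
        simpa using h3
    · exfalso
      obtain ⟨g, hg⟩ := exists_line _ Q hQ
      have e1 := hg x (mem_l _ _)
      set m := g * x * g⁻¹ with hm
      have htr : tr m = tr x := tr_conj g x
      have hdet := det_rel m
      rw [e1] at hdet
      apply hf ((m : Matrix (Fin 2) (Fin 2) F) 0 0)
      rw [← htr]
      simp only [tr]
      linear_combination -hdet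
  · rintro (h | h)
    · apply solv_closure_comm
      rw [mul_inv_eq_iff_eq_mul] at h
      rw [← map_mul, ← map_mul, h]
    · have h1 := sq_scalar_of_inv x y hτ2 h
      have h2 : y * y = 1 := by
        apply pi_inj2
        rw [map_one]
        exact (pi_eq_one_iff _).mpr h1
      apply solv_inverts _ _ (by rw [← map_mul, h2, map_one])
      rw [← map_inv, ← map_mul, ← map_mul, ← map_inv, ← h]

end forms


section count

variable [Fintype F] [CharP F 2]

lemma card_FU : Nat.card (F × Fˣ) = Fintype.card F * (Fintype.card F - 1) := by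
  classical
  rw [Nat.card_prod, Nat.card_eq_fintype_card, Nat.card_eq_fintype_card, Fintype.card_units]

/-- upper triangular matrices -/
def eqBorel : {y : SL(2, F) // (y : Matrix (Fin 2) (Fin 2) F) 1 0 = 0} ≃ F × Fˣ where
  toFun y := ((y.1 : Matrix (Fin 2) (Fin 2) F) 0 1, Units.mk0 ((y.1 : Matrix (Fin 2) (Fin 2) F) 0 0) (by
    intro h
    have := det_rel y.1
    rw [h, y.2] at this
    simp at this))
  invFun p := ⟨mk (p.2 : F) p.1 0 (p.2 : F)⁻¹ (by simp), rfl⟩
  left_inv y := by
    apply Subtype.ext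
    have hd := det_rel y.1
    rw [y.2] at hd
    have h0 : (y.1 : Matrix (Fin 2) (Fin 2) F) 0 0 ≠ 0 := by
      intro h
      rw [h] at hd
      simp at hd
    apply ext4
    · simp
    · simp
    · simp [y.2]
    · simp only [mk11, Units.val_mk0]
      field_simp
      linear_combination -hd
  right_inv p := by
    ext <;> simp

/-- matrices on a line -/
def eqLine (e : F) : {y : SL(2, F) // (y : Matrix (Fin 2) (Fin 2) F) 1 0 ≠ 0 ∧
    (y : Matrix (Fin 2) (Fin 2) F) 1 1 = (y : Matrix (Fin 2) (Fin 2) F) 0 0 + e * (y : Matrix (Fin 2) (Fin 2) F) 1 0} ≃ F × Fˣ where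
  toFun y := ((y.1 : Matrix (Fin 2) (Fin 2) F) 0 0, Units.mk0 ((y.1 : Matrix (Fin 2) (Fin 2) F) 1 0) y.2.1)
  invFun p := ⟨mk p.1 ((p.1 * (p.1 + e * (p.2 : F)) - 1) / (p.2 : F)) (p.2 : F) (p.1 + e * (p.2 : F)) (by
    have := p.2.ne_zero
    field_simp
    ring), by simp, by simp⟩
  left_inv y := by
    apply Subtype.ext
    have hd := det_rel y.1
    have h0 := y.2.1
    apply ext4
    · simp
    · simp only [mk01, Units.val_mk0]
      rw [← y.2.2]
      field_simp
      linear_combination hd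
    · simp
    · simp only [mk11, Units.val_mk0]
      exact y.2.2.symm
  right_inv p := by
    ext <;> simp

/-- monomial-like matrices in characteristic two -/
noncomputable def eqMon : {y : SL(2, F) // (y : Matrix (Fin 2) (Fin 2) F) 1 0 ≠ 0 ∧
    ((y : Matrix (Fin 2) (Fin 2) F) 0 1 = 0 ∨ ((y : Matrix (Fin 2) (Fin 2) F) 0 0 = 0 ∧ (y : Matrix (Fin 2) (Fin 2) F) 1 1 = 0))} ≃ F × Fˣ where
  toFun y := ((y.1 : Matrix (Fin 2) (Fin 2) F) 0 0, Units.mk0 ((y.1 : Matrix (Fin 2) (Fin 2) F) 1 0) y.2.1)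
  invFun p := by
    classical
    exact if h : p.1 = 0 then
      ⟨mk 0 (p.2 : F)⁻¹ (p.2 : F) 0 (by
        have h2 : (2 : F) = 0 := CharTwo.two_eq_zero
        have := p.2.ne_zero
        simp only [mul_zero, inv_mul_cancel₀ this]
        linear_combination -h2), by simp, Or.inr ⟨rfl, rfl⟩⟩
    else
      ⟨mk p.1 0 (p.2 : F) p.1⁻¹ (by simp [h]), by simp, Or.inl rfl⟩
  left_inv y := by
    classical
    have hd := det_rel y.1
    obtain ⟨y, h0, h1⟩ := y
    apply Subtype.ext
    by_cases h : (y : Matrix (Fin 2) (Fin 2) F) 0 0 = 0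
    · have hb : (y : Matrix (Fin 2) (Fin 2) F) 0 1 ≠ 0 := by
        intro hb
        simp only at hd
        rw [h, hb] at hd
        simp at hd
      have hd0 : (y : Matrix (Fin 2) (Fin 2) F) 1 1 = 0 := by
        rcases h1 with h1 | h1
        · exact absurd h1 hb
        · exact h1.2
      simp only [h, dif_pos]
      apply ext4
      · simp [h]
      · simp only [mk01, Units.val_mk0]
        simp only at hd
        rw [h] at hd
        have h2 : (2 : F) = 0 := CharTwo.two_eq_zero
        field_simp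
        first
          | linear_combination hd + h2
          | linear_combination -hd + h2
          | linear_combination hd - h2
          | linear_combination -hd - h2
      · simp
      · simp [hd0]
    · have hb : (y : Matrix (Fin 2) (Fin 2) F) 0 1 = 0 := by
        rcases h1 with h1 | h1
        · exact h1
        · exact absurd h1.1 h
      simp only [h, dif_neg, not_false_eq_true]
      apply ext4
      · simp
      · simp [hb]
      · simp
      · simp only [mk11]
        simp only at hd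
        rw [hb] at hd
        field_simp
        linear_combination -hd
  right_inv p := by
    classical
    by_cases h : p.1 = 0
    · simp only [h, dif_pos]
      ext <;> simp [h]
    · simp only [h, dif_neg, not_false_eq_true]
      ext <;> simp

lemma card_or {α : Type*} [Finite α] (p q : α → Prop) (h : ∀ a, p a → ¬ q a) :
    Nat.card {a // p a ∨ q a} = Nat.card {a // p a} + Nat.card {a // q a} := by
  classical
  rw [Nat.card_congr (subtypeOrEquiv p q (by
    rw [disjoint_iff_inf_le]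
    rintro a ⟨hp, hq⟩
    exact (h a hp hq).elim)), Nat.card_sum]

theorem count_unip (b : F) (hb : b ≠ 0) :
    Nat.card {y : SL(2, F) // (y : Matrix (Fin 2) (Fin 2) F) 1 0 = 0 ∨ tr y = 0 ∨ tr (uu b * y) = 0} =
      3 * Fintype.card F * (Fintype.card F - 1) := by
  have e : ∀ y : SL(2, F), ((y : Matrix (Fin 2) (Fin 2) F) 1 0 = 0 ∨ tr y = 0 ∨ tr (uu b * y) = 0) ↔
      ((y : Matrix (Fin 2) (Fin 2) F) 1 0 = 0 ∨ (((y : Matrix (Fin 2) (Fin 2) F) 1 0 ≠ 0 ∧
          (y : Matrix (Fin 2) (Fin 2) F) 1 1 = (y : Matrix (Fin 2) (Fin 2) F) 0 0 + 0 * (y : Matrix (Fin 2) (Fin 2) F) 1 0) ∨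
        ((y : Matrix (Fin 2) (Fin 2) F) 1 0 ≠ 0 ∧
          (y : Matrix (Fin 2) (Fin 2) F) 1 1 = (y : Matrix (Fin 2) (Fin 2) F) 0 0 + b * (y : Matrix (Fin 2) (Fin 2) F) 1 0))) := by
    intro y
    have h2 : (2 : F) = 0 := CharTwo.two_eq_zero
    have t1 : tr y = 0 ↔ (y : Matrix (Fin 2) (Fin 2) F) 1 1 = (y : Matrix (Fin 2) (Fin 2) F) 0 0 + 0 * (y : Matrix (Fin 2) (Fin 2) F) 1 0 := by
      simp only [tr, zero_mul, add_zero]
      constructor
      · intro h
        linear_combination h - (y : Matrix (Fin 2) (Fin 2) F) 0 0 * h2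
      · intro h
        rw [h]
        linear_combination (y : Matrix (Fin 2) (Fin 2) F) 0 0 * h2
    have t2 : tr (uu b * y) = 0 ↔ (y : Matrix (Fin 2) (Fin 2) F) 1 1 = (y : Matrix (Fin 2) (Fin 2) F) 0 0 + b * (y : Matrix (Fin 2) (Fin 2) F) 1 0 := by
      simp only [tr, mul00, mul11, uu00, uu01, uu10, uu11, one_mul, zero_mul, zero_add]
      constructor
      · intro h
        linear_combination h - ((y : Matrix (Fin 2) (Fin 2) F) 0 0 + b * (y : Matrix (Fin 2) (Fin 2) F) 1 0) * h2
      · intro h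
        rw [h]
        linear_combination ((y : Matrix (Fin 2) (Fin 2) F) 0 0 + b * (y : Matrix (Fin 2) (Fin 2) F) 1 0) * h2
    rw [t1, t2]
    by_cases h0 : (y : Matrix (Fin 2) (Fin 2) F) 1 0 = 0
    · simp [h0]
    · simp [h0]
  rw [Nat.card_congr (Equiv.subtypeEquivRight e)]
  rw [card_or _ _ (by
    rintro y h (h1 | h1)
    · exact h1.1 h
    · exact h1.1 h), card_or _ _ (by
    rintro y ⟨h0, h1⟩ ⟨-, h2⟩
    rw [h1] at h2
    have h3 : b * (y : Matrix (Fin 2) (Fin 2) F) 1 0 = 0 := by linear_combination -h2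
    exact (mul_ne_zero hb h0) h3)]
  rw [Nat.card_congr eqBorel, Nat.card_congr (eqLine 0), Nat.card_congr (eqLine b), card_FU]
  ring

theorem count_split :
    Nat.card {y : SL(2, F) // (y : Matrix (Fin 2) (Fin 2) F) 1 0 = 0 ∨ (y : Matrix (Fin 2) (Fin 2) F) 0 1 = 0 ∨
      ((y : Matrix (Fin 2) (Fin 2) F) 0 0 = 0 ∧ (y : Matrix (Fin 2) (Fin 2) F) 1 1 = 0)} =
      2 * Fintype.card F * (Fintype.card F - 1) := by
  have e : ∀ y : SL(2, F), ((y : Matrix (Fin 2) (Fin 2) F) 1 0 = 0 ∨ (y : Matrix (Fin 2) (Fin 2) F) 0 1 = 0 ∨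
      ((y : Matrix (Fin 2) (Fin 2) F) 0 0 = 0 ∧ (y : Matrix (Fin 2) (Fin 2) F) 1 1 = 0)) ↔
      ((y : Matrix (Fin 2) (Fin 2) F) 1 0 = 0 ∨ ((y : Matrix (Fin 2) (Fin 2) F) 1 0 ≠ 0 ∧
    ((y : Matrix (Fin 2) (Fin 2) F) 0 1 = 0 ∨ ((y : Matrix (Fin 2) (Fin 2) F) 0 0 = 0 ∧ (y : Matrix (Fin 2) (Fin 2) F) 1 1 = 0)))) := by
    intro y
    by_cases h0 : (y : Matrix (Fin 2) (Fin 2) F) 1 0 = 0
    · simp [h0]
    · simp [h0]
  rw [Nat.card_congr (Equiv.subtypeEquivRight e)]
  rw [card_or _ _ (by
    rintro y h h1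
    exact h1.1 h)]
  rw [Nat.card_congr eqBorel, Nat.card_congr eqMon, card_FU]
  ring

theorem count_nonsplit (x : SL(2, F)) (hτ : tr x ≠ 0) (hf : ∀ u : F, u ^ 2 - tr x * u + 1 ≠ 0) :
    Nat.card {y : SL(2, F) // y * x * y⁻¹ = x ∨ y * x * y⁻¹ = x⁻¹} = 2 * (Fintype.card F + 1) := by
  have hτ2 : (tr x) ^ 2 ≠ 4 := by
    have h2 : (2 : F) = 0 := CharTwo.two_eq_zero
    have h4 : (4 : F) = 0 := by linear_combination 2 * h2
    rw [h4]
    exact pow_ne_zero 2 hτ
  have hxx : x ≠ x⁻¹ := by
    intro h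
    apply hτ
    apply tr_of_sq_one
    nth_rewrite 2 [h]
    simp
  obtain ⟨w, hw⟩ := exists_inverter x hτ2
  rw [card_or _ _ (by
    rintro y h h1
    exact hxx (h.symm.trans h1))]
  have c1 : Nat.card {y : SL(2, F) // y * x * y⁻¹ = x} = Fintype.card F + 1 := by
    rw [← (cent_nonsplit x hτ2 hf).2]
    apply Nat.card_congr
    apply Equiv.subtypeEquivRight
    intro y
    rw [Subgroup.mem_centralizer_singleton_iff, mul_inv_eq_iff_eq_mul]
  have c2 : Nat.card {y : SL(2, F) // y * x * y⁻¹ = x⁻¹} = Fintype.card F + 1 := by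
    rw [← c1]
    apply Nat.card_congr
    apply Equiv.subtypeEquiv (Equiv.mulLeft w⁻¹)
    intro y
    have e1 : w⁻¹ * x⁻¹ * w = x := by
      rw [← hw]; group
    simp only [Equiv.coe_mulLeft]
    constructor
    · intro h
      calc w⁻¹ * y * x * (w⁻¹ * y)⁻¹ = w⁻¹ * (y * x * y⁻¹) * w := by group
        _ = x := by rw [h, e1]
    · intro h
      have h1 : w⁻¹ * (y * x * y⁻¹) * w = x :=
        calc w⁻¹ * (y * x * y⁻¹) * w = w⁻¹ * y * x * (w⁻¹ * y)⁻¹ := by group
          _ = x := h
      calc y * x * y⁻¹ = w * (w⁻¹ * (y * x * y⁻¹) * w) * w⁻¹ := by group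
        _ = w * x * w⁻¹ := by rw [h1]
        _ = x⁻¹ := hw
  rw [c1, c2]
  ring

/-- conjugation to a diagonal matrix, from an eigenvalue -/
lemma exists_conj_diag (x : SL(2, F)) (hτ : (tr x) ^ 2 ≠ 4) (u : F) (hu : u ^ 2 - tr x * u + 1 = 0) :
    ∃ (h : u * u⁻¹ - 0 * 0 = 1) (P : SL(2, F)), P * x * P⁻¹ = mk u 0 0 u⁻¹ h := by
  have hns : ¬ IsScalar x := not_scalar_of_tr x hτ
  obtain ⟨c, hc, P, hP⟩ := exists_conj_nf x hns
  have hu0 : u ≠ 0 := by
    rintro rfl
    simp at hu
  have hτu : tr x = u + u⁻¹ := by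
    field_simp
    linear_combination -hu
  have huu : u - u⁻¹ ≠ 0 := by
    intro h
    apply hτ
    have h1 : u⁻¹ = u := (sub_eq_zero.mp h).symm
    have h3 : u * u = 1 := by
      nth_rewrite 2 [← h1]
      exact mul_inv_cancel₀ hu0
    rw [hτu, h1]
    linear_combination 4 * h3
  set δ := c * (u - u⁻¹) with hδ
  have hδ0 : δ ≠ 0 := mul_ne_zero hc huu
  let M : SL(2, F) := mk 1 (1 / δ) (-c * u) (-c * u⁻¹ / δ) (by
    have e : 1 * (-c * u⁻¹ / δ) - 1 / δ * (-c * u) = δ / δ := by rw [hδ]; ring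
    rw [e, div_self hδ0])
  have hd : u * u⁻¹ - 0 * 0 = 1 := by field_simp; ring
  let D : SL(2, F) := mk u 0 0 u⁻¹ hd
  have hconj : M⁻¹ * (nf c (tr x) hc) * M = D := by
    have h1 : (nf c (tr x) hc) * M = M * D := by
      rw [hτu]
      apply ext4
      · simp only [mul00, nf, M, D, mk00, mk01, mk10, mk11]
        field_simp
        try ring
      · simp only [mul01, nf, M, D, mk00, mk01, mk10, mk11]
        field_simp
        try ring
      · simp only [mul10, nf, M, D, mk00, mk01, mk10, mk11]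
        field_simp
        try ring
      · simp only [mul11, nf, M, D, mk00, mk01, mk10, mk11]
        field_simp
        try ring
    rw [mul_assoc, h1]
    group
  refine ⟨hd, M⁻¹ * P, ?_⟩
  change M⁻¹ * P * x * (M⁻¹ * P)⁻¹ = D
  rw [← hconj, ← hP]; group

/-- the number of solutions, by lifting to `SL₂`. -/
lemma card_lift (x : PP) : Nat.card {y : PP // SolvP x y} = Nat.card {y : SL(2, F) // SolvP x (pi y)} := by
  apply Nat.card_congr
  exact (Equiv.subtypeEquiv (Equiv.ofBijective (pi : SL(2, F) →* PP) ⟨pi_inj2, pi_surj⟩) (fun y => Iff.rfl)).symm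

lemma card_conj (g x : PP) : Nat.card {y : PP // SolvP (g * x * g⁻¹) y} = Nat.card {y : PP // SolvP x y} := by
  apply Nat.card_congr
  symm
  apply Equiv.subtypeEquiv (MulAut.conj g).toEquiv
  intro y
  exact (solv_conj_iff g x y).symm

theorem sol_card (x : PP) :
    (orderOf x = 2 → Nat.card {y : PP // SolvP x y} = 3 * Fintype.card F * (Fintype.card F - 1)) ∧
    (x ≠ 1 → orderOf x ∣ Fintype.card F - 1 → Nat.card {y : PP // SolvP x y} = 2 * Fintype.card F * (Fintype.card F - 1)) ∧
    (x ≠ 1 → orderOf x ∣ Fintype.card F + 1 → Nat.card {y : PP // SolvP x y} = 2 * (Fintype.card F + 1)) := by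
  obtain ⟨X, rfl⟩ := pi_surj x
  obtain ⟨hq1, hq2⟩ := card_odd (F := F)
  have h2 : (2 : F) = 0 := CharTwo.two_eq_zero
  have hq : 1 < Fintype.card F := Fintype.one_lt_card
  have hlift : ∀ n : ℕ, (pi X : PP) ^ n = 1 → X ^ n = 1 := by
    intro n hn
    apply pi_inj2
    rw [map_pow, hn, map_one]
  have hτ4 : tr X ≠ 0 → (tr X) ^ 2 ≠ 4 := by
    intro hτ
    have h4 : (4 : F) = 0 := by linear_combination 2 * h2
    rw [h4]
    exact pow_ne_zero 2 hτ
  have htr : ∀ m : ℕ, Odd m → orderOf (pi X : PP) ∣ m → (pi X : PP) ≠ 1 → tr X ≠ 0 := by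
    intro m hm hd hx ht
    have h1 := sq_one_of_tr X ht
    have h3 : orderOf (pi X : PP) ∣ 2 := by
      apply orderOf_dvd_of_pow_eq_one
      rw [sq, ← map_mul, h1, map_one]
    have h4 : orderOf (pi X : PP) = 1 :=
      Nat.Coprime.eq_one_of_dvd (Nat.Coprime.coprime_dvd_left h3 (Nat.coprime_two_left.mpr hm)) hd
    exact hx (orderOf_eq_one_iff.mp h4)
  have hcard2 : X ^ (Fintype.card F - 1) = 1 → X ^ (Fintype.card F + 1) = 1 → X * X = 1 := by
    intro h3 h4
    have e : Fintype.card F + 1 = (Fintype.card F - 1) + 2 := by omega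
    rw [e, pow_add, h3, one_mul, sq] at h4
    exact h4
  have hpow : ∀ C : Subgroup SL(2, F), X ∈ C → X ^ Nat.card C = 1 := by
    intro C hC
    have := pow_card_eq_one' (x := (⟨X, hC⟩ : C))
    exact congrArg Subtype.val this
  have hself : X ∈ Subgroup.centralizer ({X} : Set SL(2, F)) := by
    rw [Subgroup.mem_centralizer_singleton_iff]
  refine ⟨?_, ?_, ?_⟩
  · intro ho
    have hx1 : (pi X : PP) ≠ 1 := by
      intro h
      rw [h, orderOf_one] at ho
      omega
    have hXX : X * X = 1 := by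
      have := hlift 2 (orderOf_dvd_iff_pow_eq_one.mp (dvd_of_eq ho))
      rwa [sq] at this
    have ht := tr_of_sq_one X hXX
    have hns : ¬ IsScalar X := not_scalar_of_ne_one hx1
    obtain ⟨b, hb, P, hP⟩ := exists_conj_ux X hns (1 : F) (by ring) (by rw [ht, h2]; ring)
    have e : (pi P : PP) * pi X * (pi P)⁻¹ = pi (uu b) := by
      rw [← pi_ux (1 : F) b (by ring), ← hP]
      simp
    rw [← card_conj (pi P), e, card_lift]
    rw [Nat.card_congr (Equiv.subtypeEquivRight (solv_unip b hb))]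
    exact count_unip b hb
  · intro hx hd
    have hτ := htr _ hq1 hd hx
    have hX1 : X ^ (Fintype.card F - 1) = 1 := hlift _ (orderOf_dvd_iff_pow_eq_one.mp hd)
    by_cases hs : ∃ u : F, u ^ 2 - tr X * u + 1 = 0
    · obtain ⟨u, hu⟩ := hs
      obtain ⟨hd', P, hP⟩ := exists_conj_diag X (hτ4 hτ) u hu
      have hu0 : u ≠ 0 := by
        rintro rfl
        simp at hu
      have hu1 : u ≠ 1 := by
        rintro rfl
        apply hτ
        linear_combination -hu + h2
      have e : (pi P : PP) * pi X * (pi P)⁻¹ = pi (mk u 0 0 u⁻¹ hd') := by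
        rw [← hP]
        simp
      rw [← card_conj (pi P), e, card_lift]
      rw [Nat.card_congr (Equiv.subtypeEquivRight (solv_split u hu0 hu1 hd'))]
      exact count_split
    · push_neg at hs
      exfalso
      have h3 := hpow _ hself
      rw [(cent_nonsplit X (hτ4 hτ) hs).2] at h3
      exact hτ (tr_of_sq_one X (hcard2 hX1 h3))
  · intro hx hd
    have hτ := htr _ hq2 hd hx
    have hX1 : X ^ (Fintype.card F + 1) = 1 := hlift _ (orderOf_dvd_iff_pow_eq_one.mp hd)
    by_cases hs : ∃ u : F, u ^ 2 - tr X * u + 1 = 0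
    · exfalso
      obtain ⟨u, hu⟩ := hs
      have h3 := hpow _ hself
      rw [(cent_split X (hτ4 hτ) u hu).2] at h3
      exact hτ (tr_of_sq_one X (hcard2 h3 hX1))
    · push_neg at hs
      rw [card_lift]
      rw [Nat.card_congr (Equiv.subtypeEquivRight (solv_nonsplit X hτ hs))]
      exact count_nonsplit X hτ hs

end count

end Cfsg.Agent.Lib.Classical.Dick
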